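import Mathlib

/-!
Abstract tools for the fusion argument: the transfer written with a cochain, products of signs
over sets with a free Klein four action, and extension of sign characters in a group with all
squares and commutators in `{1, c}`.
-/

set_option autoImplicit false
set_option linter.unusedSectionVars false
set_option linter.unusedVariables false
set_option linter.style.longLine false

namespace Cfsg.Agent.Lib.ExtraFusion.Basic

open scoped BigOperators

/-- The transfer in terms of a function `f` with `f (g * h) = f g * κ h`. -/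
theorem transfer_eq_prod_cochain {G A : Type*} [Group G] [CommGroup A] (H : Subgroup G)
    [H.FiniteIndex] [Fintype (G ⧸ H)] (κ : H →* A) (f : G → A)
    (hf : ∀ (g : G) (h : H), f (g * h) = f g * κ h) (x : G) :
    MonoidHom.transfer κ x = ∏ q : G ⧸ H, f (x * q.out) * (f q.out)⁻¹ := by
  classical
  let S : H.LeftTransversal := ⟨Set.range (Quotient.out : G ⧸ H → G),
    Subgroup.isComplement_range_left (fun q => Quotient.out_eq' q)⟩
  have hS : ∀ q : G ⧸ H, ((S.2.leftQuotientEquiv q : _) : G) = q.out := fun q =>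
    Subgroup.IsComplement.leftQuotientEquiv_apply (fun q => Quotient.out_eq' q) q
  have hS' : ∀ q : G ⧸ H, (((x • S).2.leftQuotientEquiv q : _) : G) = x * (x⁻¹ • q).out := by
    intro q
    rw [Subgroup.smul_apply_eq_smul_apply_inv_smul, hS]
    rfl
  have key : ∀ (a b : G) (hab : a⁻¹ * b ∈ H), κ ⟨a⁻¹ * b, hab⟩ = f b * (f a)⁻¹ := by
    intro a b hab
    have h2 := hf a ⟨a⁻¹ * b, hab⟩
    simp only [mul_inv_cancel_left] at h2
    rw [h2, mul_comm, ← mul_assoc, inv_mul_cancel, one_mul]
  rw [MonoidHom.transfer_def κ S x]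
  unfold Subgroup.leftTransversals.diff
  simp only []
  have h3 : ∀ q : G ⧸ H, κ ⟨((S.2.leftQuotientEquiv q : _) : G)⁻¹ * (((x • S).2.leftQuotientEquiv q : _) : G),
        QuotientGroup.leftRel_apply.mp <| Quotient.exact' ((S.2.leftQuotientEquiv.symm_apply_apply q).trans ((x • S).2.leftQuotientEquiv.symm_apply_apply q).symm)⟩
      = f (x * (x⁻¹ • q).out) * (f q.out)⁻¹ := by
    intro q
    rw [key, hS, hS']
  have h4 : (∏ q : G ⧸ H, f (x * (x⁻¹ • q).out) * (f q.out)⁻¹) = ∏ q : G ⧸ H, f (x * q.out) * (f q.out)⁻¹ := by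
    rw [Finset.prod_mul_distrib, Finset.prod_mul_distrib]
    congr 1
    exact Fintype.prod_equiv (MulAction.toPerm x⁻¹) _ _ (fun q => rfl)
  rw [← h4]
  convert Finset.prod_congr rfl (fun q _ => h3 q) using 1
  · congr!

/-- Products of signs over a set with a free action of a Klein four-group whose orbits have
trivial product. -/
theorem prod_eq_one_of_blocks {X : Type*} [DecidableEq X] (ν : X → ℤˣ) (σ τ : X → X) :
    ∀ (n : ℕ) (s : Finset X), s.card = n → (∀ y ∈ s, σ y ∈ s ∧ τ y ∈ s ∧ σ (σ y) = y ∧ τ (τ y) = y ∧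
      σ (τ y) = τ (σ y) ∧ σ y ≠ y ∧ τ y ≠ y ∧ σ y ≠ τ y ∧
      ν y * ν (σ y) * ν (τ y) * ν (σ (τ y)) = 1) → ∏ y ∈ s, ν y = 1 := by
  intro n
  induction n using Nat.strong_induction_on with
  | _ n ih =>
    intro s hs hyp
    rcases s.eq_empty_or_nonempty with rfl | ⟨a, ha⟩
    · simp
    obtain ⟨h1, h2, h3, h4, h5, h6, h7, h8, h9⟩ := hyp a ha
    obtain ⟨h1', h2', h3', h4', h5', h6', h7', h8', h9'⟩ := hyp (τ a) h2
    have hne1 : σ (τ a) ≠ a := by
      intro h
      apply h8
      have := congrArg σ h
      rw [h3'] at this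
      exact this.symm
    have hne2 : σ (τ a) ≠ σ a := by
      intro h
      apply h7
      have := congrArg σ h
      rw [h3', h3] at this
      exact this
    have hne3 : τ a ≠ a := h7
    have hne4 : σ a ≠ a := h6
    have hne5 : σ a ≠ τ a := h8
    have hne6 : σ (τ a) ≠ τ a := h6'
    let s₁ := s.erase a
    let s₂ := s₁.erase (σ a)
    let s₃ := s₂.erase (τ a)
    let s₄ := s₃.erase (σ (τ a))
    have m1 : σ a ∈ s₁ := Finset.mem_erase.2 ⟨h6, h1⟩
    have m2 : τ a ∈ s₂ := Finset.mem_erase.2 ⟨h8.symm, Finset.mem_erase.2 ⟨h7, h2⟩⟩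
    have m3 : σ (τ a) ∈ s₃ := Finset.mem_erase.2 ⟨hne6, Finset.mem_erase.2 ⟨hne2, Finset.mem_erase.2 ⟨hne1, h1'⟩⟩⟩
    have hprod : ∏ y ∈ s, ν y = (ν a * ν (σ a) * ν (τ a) * ν (σ (τ a))) * ∏ y ∈ s₄, ν y := by
      rw [← Finset.mul_prod_erase s ν ha, ← Finset.mul_prod_erase s₁ ν m1,
        ← Finset.mul_prod_erase s₂ ν m2, ← Finset.mul_prod_erase s₃ ν m3]
      simp only [mul_assoc]
      rfl
    have hcard : s₄.card < n := by
      have c1 : s₄.card < s₃.card := Finset.card_erase_lt_of_mem m3
      have c2 : s₃.card < s₂.card := Finset.card_erase_lt_of_mem m2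
      have c3 : s₂.card < s₁.card := Finset.card_erase_lt_of_mem m1
      have c4 : s₁.card < s.card := Finset.card_erase_lt_of_mem ha
      omega
    have hmem : ∀ y, y ∈ s₄ ↔ y ∈ s ∧ y ≠ a ∧ y ≠ σ a ∧ y ≠ τ a ∧ y ≠ σ (τ a) := by
      intro y
      simp only [s₄, s₃, s₂, s₁, Finset.mem_erase]
      tauto
    rw [hprod, h9, one_mul]
    refine ih _ hcard s₄ rfl ?_
    intro y hy
    obtain ⟨hys, hy1, hy2, hy3, hy4⟩ := (hmem y).1 hy
    obtain ⟨k1, k2, k3, k4, k5, k6, k7, k8, k9⟩ := hyp y hys
    have e5 : τ (σ a) = σ (τ a) := h5.symm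
    refine ⟨?_, ?_, k3, k4, k5, k6, k7, k8, k9⟩
    · rw [hmem]
      refine ⟨k1, ?_, ?_, ?_, ?_⟩
      · intro h; apply hy2; rw [← k3, h]
      · intro h; apply hy1; rw [← k3, h, h3]
      · intro h; apply hy4; rw [← k3, h]
      · intro h; apply hy3; rw [← k3, h, h3']
    · rw [hmem]
      refine ⟨k2, ?_, ?_, ?_, ?_⟩
      · intro h; apply hy3; rw [← k4, h]
      · intro h; apply hy4; rw [← k4, h, e5]
      · intro h; apply hy1; rw [← k4, h, h4]
      · intro h; apply hy2; rw [← k4, h, ← e5, show τ (τ (σ a)) = σ a from (hyp _ h1).2.2.2.1]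

/-- Products of signs over a finite set acted on by a group: either a uniform pairing or a uniform
Klein four action on each orbit carrying a nontrivial sign. -/
theorem prod_eq_one_of_pairing_or_blocks {X E : Type*} [Fintype X] [Group E] [MulAction E X]
    (ν : X → ℤˣ)
    (hpair : ∀ y₀, ν y₀ ≠ 1 →
      (∃ e : E, ∀ f : E, ν (e • f • y₀) = ν (f • y₀) ∧ e • e • f • y₀ = f • y₀ ∧ e • f • y₀ ≠ f • y₀) ∨
      (∃ u v : E, ∀ f : E, u • u • f • y₀ = f • y₀ ∧ v • v • f • y₀ = f • y₀ ∧
        u • v • f • y₀ = v • u • f • y₀ ∧ u • f • y₀ ≠ f • y₀ ∧ v • f • y₀ ≠ f • y₀ ∧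
        u • f • y₀ ≠ v • f • y₀ ∧
        ν (f • y₀) * ν (u • f • y₀) * ν (v • f • y₀) * ν (u • v • f • y₀) = 1)) :
    ∏ y, ν y = 1 := by
  classical
  let Ω := Quotient (MulAction.orbitRel E X)
  let qq : X → Ω := fun y => Quotient.mk'' y
  have hsame : ∀ (e : E) (y : X), qq (e • y) = qq y := by
    intro e y
    apply Quotient.sound'
    exact ⟨e, rfl⟩
  have hfib : ∀ y y₀ : X, qq y = qq y₀ → ∃ f : E, f • y₀ = y := by
    intro y y₀ h
    obtain ⟨f, hf⟩ := Quotient.exact' h
    exact ⟨f, hf⟩
  rw [← Finset.prod_fiberwise Finset.univ qq ν]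
  apply Finset.prod_eq_one
  intro q _
  by_cases hex : ∃ y₀ : X, qq y₀ = q ∧ ν y₀ ≠ 1
  · obtain ⟨y₀, hy₀, hne⟩ := hex
    rcases hpair y₀ hne with ⟨e, he⟩ | ⟨u, v, huv⟩
    · apply Finset.prod_involution (fun y _ => e • y)
      · intro y hy
        obtain ⟨f, rfl⟩ := hfib y y₀ (by rw [(Finset.mem_filter.1 hy).2, hy₀])
        rw [(he f).1]
        exact Int.units_mul_self _
      · intro y hy _
        obtain ⟨f, rfl⟩ := hfib y y₀ (by rw [(Finset.mem_filter.1 hy).2, hy₀])
        exact (he f).2.2
      · intro y hy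
        obtain ⟨f, rfl⟩ := hfib y y₀ (by rw [(Finset.mem_filter.1 hy).2, hy₀])
        exact (he f).2.1
      · intro y hy
        simp only [Finset.mem_filter, Finset.mem_univ, true_and] at hy ⊢
        rw [hsame]
        exact hy
    · refine prod_eq_one_of_blocks ν (fun y => u • y) (fun y => v • y) _ _ rfl ?_
      intro y hy
      have hy' := (Finset.mem_filter.1 hy).2
      obtain ⟨f, rfl⟩ := hfib y y₀ (by rw [hy', hy₀])
      obtain ⟨k1, k2, k3, k4, k5, k6, k7⟩ := huv f
      refine ⟨?_, ?_, k1, k2, k3, k4, k5, k6, k7⟩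
      · simp only [Finset.mem_filter, Finset.mem_univ, true_and]
        rw [hsame]; exact hy'
      · simp only [Finset.mem_filter, Finset.mem_univ, true_and]
        rw [hsame]; exact hy'
  · apply Finset.prod_eq_one
    intro y hy
    by_contra hne
    exact hex ⟨y, (Finset.mem_filter.1 hy).2, hne⟩

/-- Sign characters of subgroups of a finite elementary abelian `2`-group extend. -/
theorem exists_ext_elem {A : Type*} [CommGroup A] [Finite A] (h2 : ∀ a : A, a * a = 1) :
    ∀ (n : ℕ) (W : Subgroup A) (ψ : W →* ℤˣ), Nat.card A - Nat.card W = n →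
      ∃ F : A →* ℤˣ, ∀ w : W, F w = ψ w := by
  classical
  intro n
  induction n using Nat.strong_induction_on with
  | _ n ih =>
    intro W ψ hn
    by_cases hW : W = ⊤
    · subst hW
      refine ⟨ψ.comp (Subgroup.topEquiv (G := A)).symm.toMonoidHom, fun w => ?_⟩
      simp only [MonoidHom.comp_apply]
      congr 1
    · obtain ⟨a, ha⟩ : ∃ a, a ∉ W := by
        by_contra hcon
        push Not at hcon
        exact hW (Subgroup.eq_top_iff' W |>.2 hcon)
      have hinv : ∀ a : A, a⁻¹ = a := fun b => inv_eq_of_mul_eq_one_left (h2 b)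
      let W' : Subgroup A :=
        { carrier := {v | v ∈ W ∨ a * v ∈ W}
          one_mem' := Or.inl W.one_mem
          mul_mem' := by
            rintro v v' (hv | hv) (hv' | hv')
            · exact Or.inl (W.mul_mem hv hv')
            · right
              have : a * (v * v') = v * (a * v') := by rw [mul_left_comm]
              rw [this]; exact W.mul_mem hv hv'
            · right
              rw [← mul_assoc]; exact W.mul_mem hv hv'
            · left
              have : v * v' = (a * v) * (a * v') := by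
                calc v * v' = (a * a) * (v * v') := by rw [h2, one_mul]
                  _ = (a * v) * (a * v') := by
                    simp only [mul_assoc, mul_left_comm]
              rw [this]; exact W.mul_mem hv hv'
          inv_mem' := by
            rintro v (hv | hv)
            · left; exact W.inv_mem hv
            · right
              rw [hinv v]; exact hv }
      have hmem : ∀ v : A, v ∈ W' ↔ v ∈ W ∨ a * v ∈ W := fun v => Iff.rfl
      have hcase : ∀ v : A, v ∉ W → a * v ∈ W → True := fun _ _ _ => trivial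
      let ψ₀ : W' → ℤˣ := fun v => if hv : (v : A) ∈ W then ψ ⟨v, hv⟩ else
        ψ ⟨a * v, (v.2).resolve_left hv⟩
      have hmul : ∀ v v' : W', ψ₀ (v * v') = ψ₀ v * ψ₀ v' := by
        intro v v'
        simp only [ψ₀]
        by_cases hv : (v : A) ∈ W <;> by_cases hv' : (v' : A) ∈ W
        · rw [dif_pos (show ((v * v' : W') : A) ∈ W from W.mul_mem hv hv'), dif_pos hv, dif_pos hv', ← map_mul]
          rfl
        · have hv'2 : a * (v' : A) ∈ W := (v'.2).resolve_left hv'
          have hn : ((v * v' : W') : A) ∉ W := by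
            intro h
            apply hv'
            have : (v' : A) = (v : A)⁻¹ * ((v * v' : W') : A) := by
              change (v' : A) = (v : A)⁻¹ * ((v : A) * v')
              group
            rw [this]; exact W.mul_mem (W.inv_mem hv) h
          rw [dif_neg hn, dif_pos hv, dif_neg hv', ← map_mul]
          congr 1
          apply Subtype.ext
          change a * ((v : A) * v') = v * (a * v')
          rw [mul_left_comm]
        · have hv2 : a * (v : A) ∈ W := (v.2).resolve_left hv
          have hn : ((v * v' : W') : A) ∉ W := by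
            intro h
            apply hv
            have : (v : A) = ((v * v' : W') : A) * (v' : A)⁻¹ := by
              change (v : A) = ((v : A) * v') * (v' : A)⁻¹
              group
            rw [this]; exact W.mul_mem h (W.inv_mem hv')
          rw [dif_neg hn, dif_neg hv, dif_pos hv', ← map_mul]
          congr 1
          apply Subtype.ext
          change a * ((v : A) * v') = (a * v) * v'
          rw [mul_assoc]
        · have hv2 : a * (v : A) ∈ W := (v.2).resolve_left hv
          have hv'2 : a * (v' : A) ∈ W := (v'.2).resolve_left hv'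
          have heq : ((v * v' : W') : A) = (a * v) * (a * v') := by
            change (v : A) * v' = (a * v) * (a * v')
            calc (v : A) * v' = (a * a) * ((v : A) * v') := by rw [h2, one_mul]
              _ = (a * v) * (a * v') := by
                simp only [mul_assoc, mul_left_comm]
          have hm : ((v * v' : W') : A) ∈ W := by rw [heq]; exact W.mul_mem hv2 hv'2
          rw [dif_pos hm, dif_neg hv, dif_neg hv', ← map_mul]
          congr 1
          exact Subtype.ext heq
      let ψ' : W' →* ℤˣ := MonoidHom.mk' ψ₀ hmul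
      have hle : W < W' := by
        refine lt_of_le_of_ne (fun v hv => Or.inl hv) ?_
        intro h
        apply ha
        rw [h]
        exact Or.inr (by rw [h2]; exact W'.one_mem.elim (fun h' => h') (fun h' => by simpa using h'))
      have hlt : Nat.card W < Nat.card W' := by
        by_contra hcon
        exact hle.ne (Subgroup.eq_of_le_of_card_ge hle.le (not_lt.1 hcon))
      have hle2 : Nat.card W' ≤ Nat.card A := Subgroup.card_le_card_group W'
      obtain ⟨F, hF⟩ := ih (Nat.card A - Nat.card W') (by omega) W' ψ' rfl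
      refine ⟨F, fun w => ?_⟩
      have := hF ⟨w, Or.inl w.2⟩
      rw [this]
      change ψ₀ ⟨w, Or.inl w.2⟩ = ψ w
      simp only [ψ₀]
      rw [dif_pos w.2]

/-- Extension of a sign character from a subgroup to a group in which all squares and commutators
lie in `{1, c}`, `c` central, killing `c`. -/
theorem exists_char_ext {Q : Type*} [Group Q] [Finite Q] (c : Q) (hcentral : ∀ a, a * c = c * a)
    (hcc : c * c = 1) (hsq : ∀ a : Q, a * a = 1 ∨ a * a = c)
    (hcomm : ∀ a b : Q, a * b * a⁻¹ * b⁻¹ = 1 ∨ a * b * a⁻¹ * b⁻¹ = c)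
    (P : Subgroup Q) (ψ : P →* ℤˣ) (hψ : ∀ h : c ∈ P, ψ ⟨c, h⟩ = 1) :
    ∃ F : Q →* ℤˣ, F c = 1 ∧ ∀ p : P, F p = ψ p := by
  classical
  let N : Subgroup Q := Subgroup.zpowers c
  have hcN : c ∈ N := Subgroup.mem_zpowers c
  have hNmem : ∀ a : Q, a ∈ N → a = 1 ∨ a = c := by
    intro a ha
    have hle : N ≤ ({ carrier := {b | b = 1 ∨ b = c}
                      one_mem' := Or.inl rfl
                      mul_mem' := by
                        rintro a b (rfl | rfl) (rfl | rfl)
                        · left; simp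
                        · right; simp
                        · right; simp
                        · left; exact hcc
                      inv_mem' := by
                        rintro a (rfl | rfl)
                        · left; simp
                        · right; exact inv_eq_of_mul_eq_one_left hcc } : Subgroup Q) := by
      rw [Subgroup.zpowers_le]
      exact Or.inr rfl
    exact hle ha
  haveI hN : N.Normal := by
    constructor
    intro n hn g
    rcases hNmem n hn with h | h
    · rw [h]; simpa using N.one_mem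
    · have : g * c * g⁻¹ = c := by rw [hcentral]; group
      rw [h, this]; exact hcN
  have hAcomm : ∀ a b : Q ⧸ N, a * b = b * a := by
    intro a b
    induction a using QuotientGroup.induction_on with
    | H a =>
    induction b using QuotientGroup.induction_on with
    | H b =>
    rw [← QuotientGroup.mk_mul, ← QuotientGroup.mk_mul, QuotientGroup.eq]
    have h1 : (a * b)⁻¹ * (b * a) = b⁻¹ * a⁻¹ * b⁻¹⁻¹ * a⁻¹⁻¹ := by group
    rw [h1]
    rcases hcomm b⁻¹ a⁻¹ with h | h
    · rw [h]; exact N.one_mem
    · rw [h]; exact hcN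
  letI : CommGroup (Q ⧸ N) := { (inferInstance : Group (Q ⧸ N)) with mul_comm := hAcomm }
  have hA2 : ∀ a : Q ⧸ N, a * a = 1 := by
    intro a
    induction a using QuotientGroup.induction_on with
    | H a =>
    rw [← QuotientGroup.mk_mul, QuotientGroup.eq_one_iff]
    rcases hsq a with h | h
    · rw [h]; exact N.one_mem
    · rw [h]; exact hcN
  let π : Q →* Q ⧸ N := QuotientGroup.mk' N
  let f₀ : P →* Q ⧸ N := π.comp P.subtype
  have hker : f₀.rangeRestrict.ker ≤ ψ.ker := by
    intro p hp
    rw [MonoidHom.mem_ker] at hp ⊢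
    have h1 : f₀ p = 1 := congrArg Subtype.val hp
    have h2 : ((p : Q) : Q ⧸ N) = 1 := h1
    rw [QuotientGroup.eq_one_iff] at h2
    rcases hNmem _ h2 with h | h
    · have : p = 1 := Subtype.ext h
      rw [this, map_one]
    · have h3 : c ∈ P := by rw [← h]; exact p.2
      have : p = ⟨c, h3⟩ := Subtype.ext h
      rw [this, hψ]
  let ψb : f₀.range →* ℤˣ := (MonoidHom.liftOfSurjective f₀.rangeRestrict f₀.rangeRestrict_surjective) ⟨ψ, hker⟩
  have hψb : ∀ p : P, ψb (f₀.rangeRestrict p) = ψ p := fun p =>
    MonoidHom.liftOfRightInverse_comp_apply _ _ _ _ p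
  obtain ⟨Fb, hFb⟩ := exists_ext_elem hA2 _ f₀.range ψb rfl
  refine ⟨Fb.comp π, ?_, ?_⟩
  · have h1 : π c = 1 := (QuotientGroup.eq_one_iff c).2 hcN
    rw [MonoidHom.comp_apply, h1, map_one]
  · intro p
    rw [← hψb p, ← hFb]
    rfl

end Cfsg.Agent.Lib.ExtraFusion.Basic
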