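import Mathlib
import Cfsg.Prelude.Def_Transfer
import Cfsg.Agent.Lib.ExtraTransfer.Main
import Cfsg.Agent.Lib.ExtraFusion.Basic

/-!
The setting of an involution `z` with `E = O₂(C_G(z))` extraspecial and self-centralising, and no
conjugate of `z` in `E` other than `z`: cosets of `H = C_G(z)` under `E`.
-/

set_option autoImplicit false
set_option linter.unusedSectionVars false
set_option linter.unusedVariables false
set_option linter.style.longLine false

namespace Cfsg.Agent.Lib.ExtraFusion.Setup

open scoped BigOperators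
open Cfsg.Agent.Lib.LargeExtra.Basic Cfsg.Agent.Lib.LargeExtra.Duality
open Cfsg.Agent.Lib.ExtraTransfer.ELevel Cfsg.Agent.Lib.ExtraTransfer.TransferProd
open Cfsg.Agent.Lib.ExtraTransfer.Main
open Cfsg.Agent.Lib.ExtraFusion.Basic

variable {G : Type*} [Group G] {z : G} {E : Subgroup G}

/-- The standing hypotheses, with no fusion of `z` in `E`. -/
structure Ctx (z : G) (E : Subgroup G) : Prop where
  hE : SettingAt z E
  hcent : Subgroup.centralizer (E : Set G) ≤ E
  hnorm : ∀ h ∈ HH z, ∀ e ∈ E, h * e * h⁻¹ ∈ E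
  hnf : ∀ g, g * z * g⁻¹ ∈ E → g * z * g⁻¹ = z

theorem sq_mem (hE : SettingAt z E) {a : G} (ha : a ∈ E) : a * a = 1 ∨ a * a = z := by
  rcases sq_or hE.toSetting ⟨a, ha⟩ with h | h
  · left; exact congrArg Subtype.val h
  · right; exact congrArg Subtype.val h

theorem comm_mem (hE : SettingAt z E) {a b : G} (ha : a ∈ E) (hb : b ∈ E) :
    a * b = b * a ∨ a * b = z * (b * a) := by
  rcases comm_or hE.toSetting ⟨a, ha⟩ ⟨b, hb⟩ with h | h
  · left; exact congrArg Subtype.val h
  · right; exact congrArg Subtype.val h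

theorem conj_mem (hE : SettingAt z E) {d f : G} (hd : d ∈ E) (hf : f ∈ E) :
    f⁻¹ * d * f = d ∨ f⁻¹ * d * f = d * z := by
  rcases conj_or hE.toSetting ⟨d, hd⟩ ⟨f, hf⟩ with h | h
  · left; exact congrArg Subtype.val h
  · right; exact congrArg Subtype.val h

theorem z_inv (hE : SettingAt z E) : z⁻¹ = z := inv_eq_of_mul_eq_one_left hE.sq

/-- `g⁻¹ * p * g ∈ H`. -/
def ins (z g p : G) : Prop := g⁻¹ * p * g ∈ HH z

theorem ins_mul {g a b : G} (ha : ins z g a) (hb : ins z g b) : ins z g (a * b) := by
  have : g⁻¹ * (a * b) * g = (g⁻¹ * a * g) * (g⁻¹ * b * g) := by group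
  unfold ins
  rw [this]
  exact (HH z).mul_mem ha hb

theorem ins_inv {g a : G} (ha : ins z g a) : ins z g a⁻¹ := by
  have : g⁻¹ * a⁻¹ * g = (g⁻¹ * a * g)⁻¹ := by group
  unfold ins
  rw [this]
  exact (HH z).inv_mem ha

theorem ins_one {g : G} : ins z g 1 := by
  unfold ins
  have : g⁻¹ * 1 * g = 1 := by group
  rw [this]
  exact (HH z).one_mem

theorem ins_mul_left {g a b : G} (ha : ins z g a) : ins z g (a * b) ↔ ins z g b := by
  constructor
  · intro h
    have : b = a⁻¹ * (a * b) := by group
    rw [this]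
    exact ins_mul (ins_inv ha) h
  · exact ins_mul ha

theorem ins_mul_right {g a b : G} (hb : ins z g b) : ins z g (a * b) ↔ ins z g a := by
  constructor
  · intro h
    have : a = (a * b) * b⁻¹ := by group
    rw [this]
    exact ins_mul h (ins_inv hb)
  · exact fun h => ins_mul h hb

theorem ins_inv_iff {g a : G} : ins z g a⁻¹ ↔ ins z g a :=
  ⟨fun h => by simpa using ins_inv h, ins_inv⟩

/-- The value of the character at a conjugate. -/
noncomputable def pv (κ : HH z →* ℤˣ) (g p : G) : ℤˣ := KK (HH z) κ (g⁻¹ * p * g)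

theorem pv_mul {κ : HH z →* ℤˣ} {g a b : G} (ha : ins z g a) (hb : ins z g b) :
    pv κ g (a * b) = pv κ g a * pv κ g b := by
  unfold pv
  have : g⁻¹ * (a * b) * g = (g⁻¹ * a * g) * (g⁻¹ * b * g) := by group
  rw [this, KK_mul _ _ ha hb]

theorem pv_one {κ : HH z →* ℤˣ} {g : G} : pv κ g 1 = 1 := by
  unfold pv
  have : g⁻¹ * 1 * g = 1 := by group
  rw [this, KK_one]

theorem units_sq (u : ℤˣ) : u * u = 1 := Int.units_mul_self u

theorem units_cases (u : ℤˣ) : u = 1 ∨ u = -1 := Int.units_eq_one_or u

/-- The stabiliser of a coset in the `E`-orbit when `g⁻¹ z g ∈ H`. -/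
theorem stab_iff (hE : SettingAt z E) {g a f : G} (hzg : ins z g z) (ha : a ∈ E) (hf : f ∈ E) :
    ((a * (f * g) : G) : G ⧸ HH z) = ((f * g : G) : G ⧸ HH z) ↔ ins z g a := by
  rw [QuotientGroup.eq]
  have h1 : (a * (f * g))⁻¹ * (f * g) = g⁻¹ * (f⁻¹ * a⁻¹ * f) * g := by group
  rw [h1]
  rcases conj_mem hE (E.inv_mem ha) hf with h | h
  · rw [h]
    exact ins_inv_iff
  · rw [h]
    change ins z g (a⁻¹ * z) ↔ _
    rw [ins_mul_right hzg]
    exact ins_inv_iff

/-- Two elements of the orbit. -/
theorem stab_iff₂ (hE : SettingAt z E) {g a b f : G} (hzg : ins z g z) (ha : a ∈ E) (hb : b ∈ E) (hf : f ∈ E) :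
    ((a * (f * g) : G) : G ⧸ HH z) = ((b * (f * g) : G) : G ⧸ HH z) ↔ ins z g (b⁻¹ * a) := by
  rw [← stab_iff hE hzg (E.mul_mem (E.inv_mem hb) ha) hf, QuotientGroup.eq, QuotientGroup.eq]
  have : (a * (f * g))⁻¹ * (b * (f * g)) = (b⁻¹ * a * (f * g))⁻¹ * (f * g) := by group
  rw [this]

/-- `P2`: a character of `E` trivial on the stabiliser of a coset `gH` with `g ∉ H`, `z` in the
stabiliser, does not have kernel the stabiliser. -/
theorem exists_ker_not_stab [Finite G] (ctx : Ctx z E) {g : G} (hg : g ∉ HH z) (hzg : ins z g z)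
    (h : E → ℤˣ) (hmul : ∀ a b : E, h (a * b) = h a * h b)
    (htriv : ∀ p : E, ins z g p → h p = 1) :
    ∃ e : E, h e = 1 ∧ ¬ ins z g e := by
  classical
  by_contra hcon
  push Not at hcon
  obtain ⟨hE, hcent, hnorm, hnf⟩ := ctx
  obtain ⟨y, hy⟩ : ∃ y, y = g * z * g⁻¹ := ⟨_, rfl⟩
  have hconj : ∀ s : G, ins z g s ↔ s * y = y * s := by
    intro s; rw [hy]; exact conj_mem_HH
  have hyH : y ∈ HH z := by
    rw [mem_HH]
    exact (hconj z).1 hzg
  have hyy : y * y = 1 := by
    rw [hy]
    calc g * z * g⁻¹ * (g * z * g⁻¹) = g * (z * z) * g⁻¹ := by group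
      _ = 1 := by rw [hE.sq]; group
  have hyi : y⁻¹ = y := inv_eq_of_mul_eq_one_left hyy
  have hcomm1 : ∀ a : E, h a = 1 → (a : G) * y = y * a := fun a ha => (hconj a).1 (hcon a ha)
  have hcomm2 : ∀ a : E, (a : G) * y = y * a → h a = 1 := fun a ha => htriv a ((hconj a).2 ha)
  let c : E → E := fun a => ⟨y * a * y⁻¹, hnorm y hyH a a.2⟩
  have hc : ∀ a : E, ((c a : E) : G) = y * a * y⁻¹ := fun a => rfl
  have hccomm : ∀ a : E, h (c a) = h a := by
    intro a
    by_cases ha : (a : G) * y = y * a
    · have : c a = a := by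
        apply Subtype.ext
        rw [hc, ← ha]
        group
      rw [this]
    · have h1 : h a ≠ 1 := fun h2 => ha (hcomm1 a h2)
      have h2 : h (c a) ≠ 1 := by
        intro h3
        apply ha
        have h4 := hcomm1 (c a) h3
        rw [hc] at h4
        have h5 : y * (a : G) * y⁻¹ * y = y * a := by group
        have h6 : y * (y * (a : G) * y⁻¹) = (a : G) * y := by
          calc y * (y * (a : G) * y⁻¹) = (y * y) * a * y⁻¹ := by group
            _ = (a : G) * y := by rw [hyy, hyi]; group
        rw [h5, h6] at h4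
        exact h4.symm
      rw [(units_cases _).resolve_left h1, (units_cases _).resolve_left h2]
  have haction : ∀ w ∈ E, y * w * y⁻¹ = w ∨ y * w * y⁻¹ = w * z := by
    intro w₀ hw₀
    obtain ⟨w, rfl⟩ : ∃ w : E, (w : G) = w₀ := ⟨⟨w₀, hw₀⟩, rfl⟩
    by_cases hw : (w : G) * y = y * w
    · left
      rw [← hw]; group
    have hw1 : h w ≠ 1 := fun h2 => hw (hcomm1 w h2)
    have hwm : h w = -1 := (units_cases _).resolve_left hw1
    obtain ⟨d, hd⟩ : ∃ d : E, d = w⁻¹ * c w := ⟨_, rfl⟩
    have hwd : w * d = c w := by rw [hd]; group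
    have hwd' : (w : G) * d = y * w * y⁻¹ := by
      rw [← hc, ← hwd]; rfl
    have hd1 : h d = 1 := by
      have h1 := hmul w d
      rw [hwd, hccomm] at h1
      have h2 : h w * 1 = h w * h d := by rw [mul_one]; exact h1
      exact (mul_left_cancel h2).symm
    have hdy : (d : G) * y = y * d := hcomm1 d hd1
    have hdyc : y * (d : G) * y⁻¹ = d := by rw [← hdy]; group
    -- `d² = 1`
    have hdd : (d : G) * d = 1 := by
      have h1 : y * ((w : G) * d) * y⁻¹ = w := by
        rw [hwd']
        calc y * (y * (w : G) * y⁻¹) * y⁻¹ = (y * y) * w * (y * y)⁻¹ := by group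
          _ = w := by rw [hyy]; group
      have h2 : y * ((w : G) * d) * y⁻¹ = (y * w * y⁻¹) * (y * d * y⁻¹) := by group
      rw [h2, hdyc, ← hwd'] at h1
      have h3 : (w : G) * (d * d) = w * 1 := by rw [mul_one, ← mul_assoc]; exact h1
      exact mul_left_cancel h3
    have hdi : (d : G)⁻¹ = d := inv_eq_of_mul_eq_one_left hdd
    -- `d` commutes with the kernel
    have hdker : ∀ b : E, h b = 1 → (d : G) * b = b * d := by
      intro b hb
      obtain ⟨t, htt⟩ : ∃ t : E, t = w * b * w⁻¹ := ⟨_, rfl⟩
      have ht : h t = 1 := by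
        have h1 : h (t * w) = h (w * b) := by
          have : t * w = w * b := by rw [htt]; group
          rw [this]
        rw [hmul, hmul, hb, mul_one, hwm] at h1
        have h2 : h t * (-1) = 1 * (-1) := by rw [h1, one_mul]
        exact mul_right_cancel h2
      have h1 := hcomm1 t ht
      have h2 : y * (t : G) * y⁻¹ = t := by rw [← h1]; group
      have h3 : y * (t : G) * y⁻¹ = (y * w * y⁻¹) * (y * b * y⁻¹) * (y * w * y⁻¹)⁻¹ := by
        have : (t : G) = w * b * (w : G)⁻¹ := by rw [htt]; rfl
        rw [this]; group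
      have hby : y * (b : G) * y⁻¹ = b := by rw [← hcomm1 b hb]; group
      rw [hby, ← hwd', h2] at h3
      have ht' : (t : G) = w * b * (w : G)⁻¹ := by rw [htt]; rfl
      rw [ht'] at h3
      have h4 : (w : G) * b = (w : G) * d * b * (d : G)⁻¹ := by
        have h5 := congrArg (fun s => s * (w : G)) h3
        simp only [inv_mul_cancel_right] at h5
        rw [h5]
        group
      have h6 : (b : G) = d * b * (d : G)⁻¹ := by
        apply mul_left_cancel (a := (w : G))
        rw [h4]; group
      calc (d : G) * b = d * b * (d : G)⁻¹ * d := by group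
        _ = b * d := by rw [← h6]
    have hdw : (d : G) * w = w * d := by
      have h1 : h (w * w) = 1 := by
        rw [hmul, hwm]; decide
      have h2 := hcomm1 (w * w) h1
      have h3 : y * ((w : G) * w) * y⁻¹ = (w : G) * w := by
        have h4 : ((w * w : E) : G) = (w : G) * w := rfl
        rw [h4] at h2
        rw [← h2]; group
      have h4 : y * ((w : G) * w) * y⁻¹ = (y * w * y⁻¹) * (y * w * y⁻¹) := by group
      rw [h4, ← hwd'] at h3
      have h5 : (d : G) * w * d = w := by
        have h6 : (w : G) * ((d : G) * w * d) = w * w := by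
          rw [← h3]; group
        exact mul_left_cancel h6
      calc (d : G) * w = (d : G) * w * d * (d : G)⁻¹ := by group
        _ = w * d := by rw [h5, hdi]
    have hdall : ∀ b ∈ E, (d : G) * b = b * d := by
      intro b₀ hb₀
      obtain ⟨b, rfl⟩ : ∃ b : E, (b : G) = b₀ := ⟨⟨b₀, hb₀⟩, rfl⟩
      by_cases hb : h b = 1
      · exact hdker b hb
      · have hbm : h b = -1 := (units_cases _).resolve_left hb
        obtain ⟨s, hss⟩ : ∃ s : E, s = w⁻¹ * b := ⟨_, rfl⟩
        have hs : h s = 1 := by
          have h1 : h (w * s) = h b := by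
            have : w * s = b := by rw [hss]; group
            rw [this]
          rw [hmul, hwm, hbm] at h1
          have h2 : (-1 : ℤˣ) * h s = (-1) * 1 := by rw [h1, mul_one]
          exact mul_left_cancel h2
        have h2 := hdker s hs
        have h3 : (b : G) = w * s := by
          rw [hss]
          change (b : G) = w * ((w : G)⁻¹ * b)
          group
        rw [h3]
        calc (d : G) * (w * s) = ((d : G) * w) * s := by group
          _ = (w * d) * s := by rw [hdw]
          _ = w * ((d : G) * s) := by group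
          _ = w * (s * d) := by rw [h2]
          _ = (w * s) * d := by group
    rcases hE.rad d d.2 hdall with h1 | h1
    · left
      rw [← hwd', h1, mul_one]
    · right
      rw [← hwd', h1]
  have hyE : y ∈ E := mem_E_of_action hE hcent haction
  have hyz : y = z := by
    rw [hy] at hyE ⊢
    exact hnf g hyE
  apply hg
  rw [mem_HH]
  have h1 : g * z * g⁻¹ = z := by rw [← hy, hyz]
  calc z * g = (g * z * g⁻¹) * g := by rw [h1]
    _ = g * z := by group

/-- The order estimate for subgroups on which the commutator pairing vanishes. -/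
theorem card_bound [Finite G] (hE : SettingAt z E) (P : Subgroup G) (hPE : P ≤ E) (hzP : z ∈ P)
    (hab : ∀ a ∈ P, ∀ b ∈ P, a * b = b * a) (h128 : 128 ≤ Nat.card E) :
    8 * Nat.card P ≤ Nat.card E := by
  classical
  have hS := hE.toSetting
  let Y : Subgroup E := P.subgroupOf E
  have hY : Nat.card Y = Nat.card P := Nat.card_congr (Subgroup.subgroupOfEquivOfLe hPE).toEquiv
  have h1 := hS.card_mul_card_centralizer Y (by
    change (⟨z, hE.mem⟩ : E) ∈ P.subgroupOf E
    rw [Subgroup.mem_subgroupOf]
    exact hzP)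
  have hle : Y ≤ Subgroup.centralizer (Y : Set E) := by
    intro a ha
    rw [Subgroup.mem_centralizer_iff]
    intro b hb
    apply Subtype.ext
    exact hab _ hb _ ha
  have h2 : Nat.card Y ≤ Nat.card (Subgroup.centralizer (Y : Set E)) := Subgroup.card_le_of_le hle
  rw [hY] at h1 h2
  by_contra hcon
  push Not at hcon
  have h3 : Nat.card P * Nat.card P ≤ 2 * Nat.card E := by
    rw [← h1]
    exact Nat.mul_le_mul_left _ h2
  nlinarith

/-- A covering by four translates of `P`. -/
theorem card_le_four_of_cover [Finite G] (E P : Subgroup G) (u v : G)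
    (h : ∀ w ∈ E, w ∈ P ∨ u⁻¹ * w ∈ P ∨ w * v⁻¹ ∈ P ∨ u⁻¹ * (w * v⁻¹) ∈ P) :
    Nat.card E ≤ 4 * Nat.card P := by
  classical
  letI : Fintype G := Fintype.ofFinite G
  let E' : Finset G := Finset.univ.filter (· ∈ E)
  let P' : Finset G := Finset.univ.filter (· ∈ P)
  have hE' : Nat.card E = E'.card := by
    rw [Nat.card_eq_fintype_card, Fintype.card_subtype]
  have hP' : Nat.card P = P'.card := by
    rw [Nat.card_eq_fintype_card, Fintype.card_subtype]
  have hsub : E' ⊆ (P' ∪ P'.image (fun p => u * p)) ∪ (P'.image (fun p => p * v) ∪ P'.image (fun p => u * (p * v))) := by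
    intro w hw
    have hw' : w ∈ E := (Finset.mem_filter.1 hw).2
    simp only [Finset.mem_union, Finset.mem_image, P', Finset.mem_filter, Finset.mem_univ, true_and]
    rcases h w hw' with h1 | h1 | h1 | h1
    · exact Or.inl (Or.inl h1)
    · exact Or.inl (Or.inr ⟨_, h1, by group⟩)
    · exact Or.inr (Or.inl ⟨_, h1, by group⟩)
    · exact Or.inr (Or.inr ⟨_, h1, by group⟩)
  have h1 := Finset.card_le_card hsub
  have h2 := Finset.card_union_le (P' ∪ P'.image (fun p => u * p)) (P'.image (fun p => p * v) ∪ P'.image (fun p => u * (p * v)))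
  have h3 := Finset.card_union_le P' (P'.image (fun p => u * p))
  have h4 := Finset.card_union_le (P'.image (fun p => p * v)) (P'.image (fun p => u * (p * v)))
  have h5 := Finset.card_image_le (s := P') (f := fun p => u * p)
  have h6 := Finset.card_image_le (s := P') (f := fun p => p * v)
  have h7 := Finset.card_image_le (s := P') (f := fun p => u * (p * v))
  rw [hE', hP']
  omega

end Cfsg.Agent.Lib.ExtraFusion.Setup
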