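import Mathlib
import Cfsg.Agent.Lib.ExtraFusion.Setup

/-!
If every conjugate of `z` in `H = C_G(z)` lies in the kernel of the sign character `κ`, then the
transfer of `κ` restricts to `κ` on `H`.
-/

set_option autoImplicit false
set_option linter.unusedSectionVars false
set_option linter.unusedVariables false
set_option linter.style.longLine false

namespace Cfsg.Agent.Lib.ExtraFusion.LemmaA

open scoped BigOperators
open Cfsg.Agent.Lib.LargeExtra.Basic Cfsg.Agent.Lib.LargeExtra.Duality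
open Cfsg.Agent.Lib.ExtraTransfer.ELevel Cfsg.Agent.Lib.ExtraTransfer.TransferProd
open Cfsg.Agent.Lib.ExtraTransfer.Main
open Cfsg.Agent.Lib.ExtraFusion.Basic Cfsg.Agent.Lib.ExtraFusion.Setup

variable {G : Type*} [Group G] {z : G} {E : Subgroup G}

/-- Extension of the character on the stabiliser of a coset to all of `E`. -/
theorem exists_F [Finite G] (hE : SettingAt z E) (κ : HH z →* ℤˣ)
    (hZ : ∀ g (hg : g⁻¹ * z * g ∈ HH z), κ ⟨_, hg⟩ = 1) (g : G) :
    ∃ F : E →* ℤˣ, F ⟨z, hE.mem⟩ = 1 ∧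
      ∀ p : E, g⁻¹ * (p : G) * g ∈ HH z → F p = KK (HH z) κ (g⁻¹ * p * g) := by
  classical
  have hS := hE.toSetting
  let P : Subgroup E :=
    { carrier := {p | g⁻¹ * (p : G) * g ∈ HH z}
      one_mem' := by
        change g⁻¹ * 1 * g ∈ HH z
        have : g⁻¹ * 1 * g = 1 := by group
        rw [this]; exact (HH z).one_mem
      mul_mem' := by
        intro a b ha hb
        exact ins_mul ha hb
      inv_mem' := by
        intro a ha
        exact ins_inv ha }
  let ψ : P →* ℤˣ := MonoidHom.mk' (fun p => κ ⟨g⁻¹ * (((p : E)) : G) * g, p.2⟩) (by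
    intro a b
    rw [← map_mul]
    congr 1
    apply Subtype.ext
    change g⁻¹ * (((a : E) : G) * ((b : E) : G)) * g = (g⁻¹ * ((a : E) : G) * g) * (g⁻¹ * ((b : E) : G) * g)
    group)
  obtain ⟨F, hF1, hF2⟩ := exists_char_ext (⟨z, hE.mem⟩ : E) hS.c_central hS.c_sq (sq_or hS) hS.comm P ψ
    (fun h => hZ g h)
  refine ⟨F, hF1, fun p hp => ?_⟩
  rw [KK_of_mem _ _ hp]
  exact hF2 ⟨p, hp⟩

/-- Independence of the witness. -/
theorem val_indep {H E : Subgroup G} (κ : H →* ℤˣ) (r : G) (Fr : E →* ℤˣ)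
    (hFr : ∀ p : E, r⁻¹ * (p : G) * r ∈ H → Fr p = KK H κ (r⁻¹ * p * r))
    (w w' : E) (g : G) (h1 : r⁻¹ * (w : G)⁻¹ * g ∈ H) (h2 : r⁻¹ * (w' : G)⁻¹ * g ∈ H) :
    Fr w' * KK H κ (r⁻¹ * (w' : G)⁻¹ * g) = Fr w * KK H κ (r⁻¹ * (w : G)⁻¹ * g) := by
  have hp : r⁻¹ * ((w⁻¹ * w' : E) : G) * r = (r⁻¹ * (w : G)⁻¹ * g) * (r⁻¹ * (w' : G)⁻¹ * g)⁻¹ := by
    change r⁻¹ * ((w : G)⁻¹ * (w' : G)) * r = _
    group
  have hmem : r⁻¹ * ((w⁻¹ * w' : E) : G) * r ∈ H := by
    rw [hp]; exact H.mul_mem h1 (H.inv_mem h2)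
  have h3 := hFr _ hmem
  rw [hp, KK_mul _ _ h1 (H.inv_mem h2)] at h3
  have h4 : w' = w * (w⁻¹ * w') := by group
  have h5 : KK H κ (r⁻¹ * (w' : G)⁻¹ * g)⁻¹ * KK H κ (r⁻¹ * (w' : G)⁻¹ * g) = 1 := by
    rw [← KK_mul _ _ (H.inv_mem h2) h2, inv_mul_cancel, KK_one]
  calc Fr w' * KK H κ (r⁻¹ * (w' : G)⁻¹ * g)
      = Fr w * Fr (w⁻¹ * w') * KK H κ (r⁻¹ * (w' : G)⁻¹ * g) := by
        rw [← map_mul, ← h4]
    _ = Fr w * (KK H κ (r⁻¹ * (w : G)⁻¹ * g) * KK H κ (r⁻¹ * (w' : G)⁻¹ * g)⁻¹) * KK H κ (r⁻¹ * (w' : G)⁻¹ * g) := by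
        rw [h3]
    _ = Fr w * KK H κ (r⁻¹ * (w : G)⁻¹ * g) * (KK H κ (r⁻¹ * (w' : G)⁻¹ * g)⁻¹ * KK H κ (r⁻¹ * (w' : G)⁻¹ * g)) := by
        simp only [mul_assoc]
    _ = Fr w * KK H κ (r⁻¹ * (w : G)⁻¹ * g) := by rw [h5, mul_one]

/-- The cochain on `G` adapted to the `E`-orbits on `G ⧸ H`. -/
theorem exists_cochain (H E : Subgroup G) (κ : H →* ℤˣ) (F : G → (E →* ℤˣ))
    (hF : ∀ g, ∀ p : E, g⁻¹ * (p : G) * g ∈ H → F g p = KK H κ (g⁻¹ * p * g)) :
    ∃ (f : G → ℤˣ) (Φ : G → (E →* ℤˣ)),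
      (∀ g, ∀ h : H, f (g * h) = f g * κ h) ∧
      (∀ g, ∀ w : E, f (w * g) = Φ g w * f g) ∧
      (∀ g, ∀ w : E, ∀ h : H, Φ (w * (g * h)) = Φ g) ∧
      (∀ g, ∃ g', Φ g = F g') := by
  classical
  let cls : G → Quotient (MulAction.orbitRel E (G ⧸ H)) := fun g => Quotient.mk'' (g : G ⧸ H)
  let rep : Quotient (MulAction.orbitRel E (G ⧸ H)) → G := fun c => (Quotient.out c : G ⧸ H).out
  have hrep : ∀ c, cls (rep c) = c := by
    intro c
    simp only [cls, rep]
    rw [QuotientGroup.out_eq']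
    exact Quotient.out_eq' c
  have hcls : ∀ g (w : E) (h : H), cls (w * (g * h)) = cls g := by
    intro g w h
    apply Quotient.sound'
    refine ⟨w, ?_⟩
    change ((w * g : G) : G ⧸ H) = ((w * (g * h) : G) : G ⧸ H)
    rw [QuotientGroup.eq]
    have : (w * g : G)⁻¹ * (w * (g * h)) = h := by group
    rw [this]
    exact h.2
  have hcls1 : ∀ g (h : H), cls (g * h) = cls g := by
    intro g h
    have := hcls g 1 h
    simpa using this
  have hcls2 : ∀ g (w : E), cls (w * g) = cls g := by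
    intro g w
    have := hcls g w 1
    simpa using this
  have hwit : ∀ g, ∃ w : E, (rep (cls g))⁻¹ * (w : G)⁻¹ * g ∈ H := by
    intro g
    have h1 : cls g = cls (rep (cls g)) := (hrep _).symm
    obtain ⟨w, hw⟩ := Quotient.exact' h1
    refine ⟨w, ?_⟩
    have hw' : ((w * rep (cls g) : G) : G ⧸ H) = (g : G ⧸ H) := hw
    rw [QuotientGroup.eq] at hw'
    have : (rep (cls g))⁻¹ * (w : G)⁻¹ * g = ((w : G) * rep (cls g))⁻¹ * g := by group
    rw [this]
    exact hw'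
  choose wit hwit' using hwit
  refine ⟨fun g => F (rep (cls g)) (wit g) * KK H κ ((rep (cls g))⁻¹ * (wit g : G)⁻¹ * g),
    fun g => F (rep (cls g)), ?_, ?_, ?_, fun g => ⟨_, rfl⟩⟩
  · intro g h
    simp only []
    have h1 := hwit' (g * h)
    rw [hcls1] at h1 ⊢
    have h2 : (rep (cls g))⁻¹ * (wit g : G)⁻¹ * (g * h) = ((rep (cls g))⁻¹ * (wit g : G)⁻¹ * g) * h := by group
    have h3 := hwit' g
    have h4 : (rep (cls g))⁻¹ * (wit g : G)⁻¹ * (g * h) ∈ H := by
      rw [h2]; exact H.mul_mem h3 h.2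
    rw [val_indep κ _ _ (hF _) (wit g) (wit (g * h)) (g * h) h4 h1, h2, KK_mul _ _ h3 h.2, KK_of_mem _ _ h.2]
    simp only [mul_assoc]
  · intro g w
    simp only []
    have h1 := hwit' (w * g)
    rw [hcls2] at h1 ⊢
    have h2 : (rep (cls g))⁻¹ * ((w * wit g : E) : G)⁻¹ * (w * g) = (rep (cls g))⁻¹ * (wit g : G)⁻¹ * g := by
      change (rep (cls g))⁻¹ * ((w : G) * (wit g : G))⁻¹ * (w * g) = _
      group
    have h3 := hwit' g
    have h4 : (rep (cls g))⁻¹ * ((w * wit g : E) : G)⁻¹ * (w * g) ∈ H := by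
      rw [h2]; exact h3
    rw [val_indep κ _ _ (hF _) (w * wit g) (wit (w * g)) (w * g) h4 h1, h2, map_mul]
    simp only [mul_assoc]
  · intro g w h
    simp only []
    rw [hcls]

/-- If the conjugates of `z` in `H` are in the kernel of `κ`, then the transfer of `κ` restricts to
`κ` on `H`. -/
theorem lemmaA [Finite G] (ctx : Ctx z E) (κ : HH z →* ℤˣ)
    (hZ : ∀ g (hg : g⁻¹ * z * g ∈ HH z), κ ⟨_, hg⟩ = 1)
    (hV : ∀ x, MonoidHom.transfer κ x = 1) : ∀ u, κ u = 1 := by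
  classical
  have hE := ctx.hE
  have hnorm := ctx.hnorm
  choose F hF1 hF2 using exists_F hE κ hZ
  obtain ⟨f, Φ, hf1, hf2, hf3, hf4⟩ := exists_cochain (HH z) E κ F hF2
  have hΦz : ∀ g, Φ g ⟨z, hE.mem⟩ = 1 := by
    intro g
    obtain ⟨g', hg'⟩ := hf4 g
    rw [hg']
    exact hF1 g'
  rintro ⟨x, hxH⟩
  letI : Fintype (G ⧸ HH z) := Fintype.ofFinite _
  have hxz : z * x = x * z := mem_HH.1 hxH
  -- the function `D`
  obtain ⟨D, hDdef⟩ : ∃ D : G → ℤˣ, ∀ g, D g = f (x * g) * (f g)⁻¹ := ⟨_, fun _ => rfl⟩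
  have hDr : ∀ g, ∀ h : HH z, D (g * h) = D g := by
    intro g h
    rw [hDdef, hDdef, ← mul_assoc, hf1, hf1, mul_inv, mul_mul_mul_comm, mul_inv_cancel, mul_one]
  have hDmk : ∀ g : G, D ((g : G ⧸ HH z).out) = D g := by
    intro g
    obtain ⟨h, hh⟩ := QuotientGroup.mk_out_eq_mul (HH z) g
    rw [hh, hDr]
  have hVx : ∏ q : G ⧸ HH z, D q.out = 1 := by
    rw [← hV x, transfer_eq_prod_cochain (HH z) κ f hf1 x]
    exact Finset.prod_congr rfl (fun q _ => hDdef _)
  let cx : E → E := fun w => ⟨x * w * x⁻¹, hnorm x hxH w w.2⟩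
  have hcx : ∀ w : E, ((cx w : E) : G) = x * w * x⁻¹ := fun w => rfl
  have hcxmul : ∀ a b : E, cx (a * b) = cx a * cx b := by
    intro a b
    apply Subtype.ext
    change x * ((a : G) * b) * x⁻¹ = (x * a * x⁻¹) * (x * b * x⁻¹)
    group
  have hcxz : cx ⟨z, hE.mem⟩ = ⟨z, hE.mem⟩ := by
    apply Subtype.ext
    change x * z * x⁻¹ = z
    rw [← hxz]; group
  have hD : ∀ (g : G) (w : E), D (w * g) = (Φ (x * g) (cx w) * (Φ g w)⁻¹) * D g := by
    intro g w
    rw [hDdef, hDdef]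
    have h1 : x * ((w : G) * g) = (cx w : G) * (x * g) := by
      rw [hcx]; group
    rw [h1, hf2, hf2, mul_inv]
    simp only [mul_assoc, mul_left_comm]
  have hinv1 : ∀ (g : G) (w : E), Φ ((w : G) * g) = Φ g := by
    intro g w
    have := hf3 g w 1
    simpa using this
  have hinv2 : ∀ (g : G) (w : E), Φ (x * ((w : G) * g)) = Φ (x * g) := by
    intro g w
    have h1 : x * ((w : G) * g) = (cx w : G) * (x * g) := by
      rw [hcx]; group
    rw [h1, hinv1]
  let H₀ : G ⧸ HH z := ((1 : G) : G ⧸ HH z)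
  have hDH₀ : D (H₀.out) = κ ⟨x, hxH⟩ := by
    rw [hDmk, hDdef, mul_one]
    have := hf1 1 ⟨x, hxH⟩
    rw [one_mul] at this
    change f x = f 1 * κ ⟨x, hxH⟩ at this
    rw [this, mul_comm, ← mul_assoc, inv_mul_cancel, one_mul]
  let ν' : G ⧸ HH z → ℤˣ := fun y => if y = H₀ then 1 else D y.out
  have hν'1 : ∏ y, ν' y = 1 := by
    apply prod_eq_one_of_pairing (E := E)
    intro y₀ hy₀
    have hy₀ne : y₀ ≠ H₀ := by
      intro h
      apply hy₀
      simp [ν', h]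
    induction y₀ using QuotientGroup.induction_on with
    | H g =>
    have hg : g ∉ HH z := by
      intro hmem
      apply hy₀ne
      change (g : G ⧸ HH z) = ((1 : G) : G ⧸ HH z)
      rw [QuotientGroup.eq]
      simpa using hmem
    have hne : ∀ a : E, (((a : G) * g : G) : G ⧸ HH z) ≠ H₀ := by
      intro a ha
      apply hg
      change (((a : G) * g : G) : G ⧸ HH z) = ((1 : G) : G ⧸ HH z) at ha
      rw [QuotientGroup.eq] at ha
      have h4 : ((a : G) * g)⁻¹ * 1 = g⁻¹ * (a : G)⁻¹ := by group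
      rw [h4] at ha
      have h5 : g = (a : G)⁻¹ * (g⁻¹ * (a : G)⁻¹)⁻¹ := by group
      rw [h5]
      exact (HH z).mul_mem ((HH z).inv_mem (E_le_HH hE a.2)) ((HH z).inv_mem ha)
    have hν'val : ∀ a : E, ν' (((a : G) * g : G) : G ⧸ HH z) = D ((a : G) * g) := by
      intro a
      simp only [ν']
      rw [if_neg (hne a), hDmk]
    have hstep : ∀ (e a : E), D ((e : G) * ((a : G) * g)) = (Φ (x * g) (cx e) * (Φ g e)⁻¹) * D ((a : G) * g) := by
      intro e a
      rw [hD, hinv2, hinv1]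
    have hmulh : ∀ a b : E, (Φ (x * g) (cx (a * b)) * (Φ g (a * b))⁻¹) = (Φ (x * g) (cx a) * (Φ g a)⁻¹) * (Φ (x * g) (cx b) * (Φ g b)⁻¹) := by
      intro a b
      rw [hcxmul, map_mul, map_mul, mul_inv]
      simp only [mul_assoc, mul_left_comm]
    by_cases hzg : ins z g z
    · -- the stabiliser contains `z`
      have htriv : ∀ p : E, ins z g p → (Φ (x * g) (cx p) * (Φ g p)⁻¹) = 1 := by
        intro p hp
        have h1 := hD g p
        have h2 : (p : G) * g = g * (⟨g⁻¹ * p * g, hp⟩ : HH z) := by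
          change (p : G) * g = g * (g⁻¹ * p * g)
          group
        rw [h2, hDr] at h1
        have h3 : 1 * D g = (Φ (x * g) (cx p) * (Φ g p)⁻¹) * D g := by rw [one_mul]; exact h1
        exact (mul_right_cancel h3).symm
      obtain ⟨e, he1, he2⟩ := exists_ker_not_stab ctx hg hzg _ hmulh htriv
      refine ⟨e, fun a => ?_⟩
      have hee : ins z g ((e : G) * e) := by
        rcases sq_mem hE e.2 with h | h
        · rw [h]; exact ins_one
        · rw [h]; exact hzg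
      refine ⟨?_, ?_, ?_⟩
      · change ν' (((e : G) * ((a : G) * g) : G) : G ⧸ HH z) = ν' (((a : G) * g : G) : G ⧸ HH z)
        have h1 : ((e : G) * ((a : G) * g)) = (((e * a : E) : G) * g) := by
          change (e : G) * ((a : G) * g) = ((e : G) * a) * g
          group
        rw [h1, hν'val, hν'val, ← h1, hstep, he1, one_mul]
      · change (((e : G) * ((e : G) * ((a : G) * g)) : G) : G ⧸ HH z) = (((a : G) * g : G) : G ⧸ HH z)
        have h1 : ((e : G) * ((e : G) * ((a : G) * g))) = ((e : G) * e) * ((a : G) * g) := by group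
        rw [h1]
        exact (stab_iff hE hzg (E.mul_mem e.2 e.2) a.2).2 hee
      · change (((e : G) * ((a : G) * g) : G) : G ⧸ HH z) ≠ (((a : G) * g : G) : G ⧸ HH z)
        intro h
        exact he2 ((stab_iff hE hzg e.2 a.2).1 h)
    · -- `z` moves all the cosets in the orbit
      refine ⟨⟨z, hE.mem⟩, fun a => ?_⟩
      have hzc : ∀ a : E, (a : G) * z = z * a := fun a => hE.central a a.2
      refine ⟨?_, ?_, ?_⟩
      · change ν' ((z * ((a : G) * g) : G) : G ⧸ HH z) = ν' (((a : G) * g : G) : G ⧸ HH z)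
        have h1 : (z * ((a : G) * g)) = ((((⟨z, hE.mem⟩ : E) * a : E) : G) * g) := by
          change z * ((a : G) * g) = (z * a) * g
          group
        rw [h1, hν'val, hν'val, ← h1]
        have h2 := hstep ⟨z, hE.mem⟩ a
        rw [hcxz, hΦz, hΦz, inv_one, one_mul, one_mul] at h2
        exact h2
      · change ((z * (z * ((a : G) * g)) : G) : G ⧸ HH z) = (((a : G) * g : G) : G ⧸ HH z)
        rw [← mul_assoc, hE.sq, one_mul]
      · change ((z * ((a : G) * g) : G) : G ⧸ HH z) ≠ (((a : G) * g : G) : G ⧸ HH z)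
        intro h
        rw [QuotientGroup.eq] at h
        apply hzg
        have h1 : (z * ((a : G) * g))⁻¹ * ((a : G) * g) = g⁻¹ * z * g := by
          have hzi := z_inv hE
          calc (z * ((a : G) * g))⁻¹ * ((a : G) * g) = g⁻¹ * ((a : G)⁻¹ * (z⁻¹ * a)) * g := by group
            _ = g⁻¹ * ((a : G)⁻¹ * (z * a)) * g := by rw [hzi]
            _ = g⁻¹ * ((a : G)⁻¹ * (a * z)) * g := by rw [hzc]
            _ = g⁻¹ * z * g := by group
        rw [h1] at h
        exact h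
  have h1 : ∏ y : G ⧸ HH z, D (Quotient.out y) = D H₀.out * ∏ y ∈ Finset.univ.erase H₀, D (Quotient.out y) :=
    (Finset.mul_prod_erase _ _ (Finset.mem_univ H₀)).symm
  have h2 : ∏ y, ν' y = ν' H₀ * ∏ y ∈ Finset.univ.erase H₀, ν' y :=
    (Finset.mul_prod_erase _ _ (Finset.mem_univ H₀)).symm
  have h3 : ∏ y ∈ Finset.univ.erase H₀, ν' y = ∏ y ∈ Finset.univ.erase H₀, D (Quotient.out y) := by
    apply Finset.prod_congr rfl
    intro y hy
    simp only [ν']
    rw [if_neg (Finset.ne_of_mem_erase hy)]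
  have h4 : ν' H₀ = 1 := by simp [ν']
  rw [hν'1, h4, one_mul, h3] at h2
  rw [hVx, hDH₀, ← h2, mul_one] at h1
  exact h1.symm

end Cfsg.Agent.Lib.ExtraFusion.LemmaA
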