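import Mathlib
import Cfsg.Agent.Lib.ExtraFusion.Setup

/-!
The orbit analysis for the transfer of a sign character `κ` of `H = C_G(z)` at an involution `x` of
`H` with `κ x = -1`.
-/

set_option autoImplicit false
set_option linter.unusedSectionVars false
set_option linter.unusedVariables false
set_option linter.style.longLine false

namespace Cfsg.Agent.Lib.ExtraFusion.LemmaB

open scoped BigOperators
open Cfsg.Agent.Lib.LargeExtra.Basic Cfsg.Agent.Lib.LargeExtra.Duality
open Cfsg.Agent.Lib.ExtraTransfer.ELevel Cfsg.Agent.Lib.ExtraTransfer.TransferProd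
open Cfsg.Agent.Lib.ExtraTransfer.Main
open Cfsg.Agent.Lib.ExtraFusion.Basic Cfsg.Agent.Lib.ExtraFusion.Setup

variable {G : Type*} [Group G] {z : G} {E : Subgroup G}

/-- `w⁻¹ * (x w x⁻¹)`. -/
def rr (x w : G) : G := w⁻¹ * (x * w * x⁻¹)

theorem rr_mem (hnorm : ∀ h ∈ HH z, ∀ e ∈ E, h * e * h⁻¹ ∈ E) {x w : G} (hx : x ∈ HH z) (hw : w ∈ E) :
    rr x w ∈ E :=
  E.mul_mem (E.inv_mem hw) (hnorm x hx w hw)

theorem rr_mul (x a b : G) : rr x (a * b) = (b⁻¹ * rr x a * b) * rr x b := by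
  unfold rr; group

theorem rr_inv_formula (x w v : G) : rr x (w * v⁻¹) = v * (rr x w * (rr x v)⁻¹) * v⁻¹ := by
  unfold rr; group

theorem rr_rr {x : G} (hxx : x * x = 1) (w : G) : rr x (rr x w) = (rr x w)⁻¹ * (rr x w)⁻¹ := by
  have hxi : x⁻¹ = x := inv_eq_of_mul_eq_one_left hxx
  have h1 : x * rr x w * x⁻¹ = (rr x w)⁻¹ := by
    unfold rr
    rw [hxi]
    calc x * (w⁻¹ * (x * w * x)) * x = x * w⁻¹ * x * w * (x * x) := by group
      _ = x * w⁻¹ * x * w := by rw [hxx, mul_one]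
      _ = (w⁻¹ * (x * w * x))⁻¹ := by
        have : (w⁻¹ * (x * w * x))⁻¹ = x⁻¹ * w⁻¹ * x⁻¹ * w := by group
        rw [this, hxi]
  conv_lhs => rw [rr]
  rw [h1]

section Orbit

variable {κ : HH z →* ℤˣ} {x g : G}

theorem val_key (x g w : G) : (w * g)⁻¹ * x * (w * g) = (g⁻¹ * rr x w * g) * (g⁻¹ * x * g) := by
  unfold rr; group

theorem val_ins (hgx : ins z g x) {w : G} (hw : ins z g (rr x w)) :
    KK (HH z) κ ((w * g)⁻¹ * x * (w * g)) = pv κ g (rr x w) * pv κ g x := by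
  rw [val_key, KK_mul _ _ hw hgx]
  rfl

theorem val_not (hgx : ins z g x) {w : G} (hw : ¬ ins z g (rr x w)) :
    KK (HH z) κ ((w * g)⁻¹ * x * (w * g)) = 1 := by
  apply KK_of_not_mem
  rw [val_key]
  intro h
  apply hw
  have h1 : g⁻¹ * rr x w * g = (g⁻¹ * rr x w * g) * (g⁻¹ * x * g) * (g⁻¹ * x * g)⁻¹ := by group
  unfold ins
  rw [h1]
  exact (HH z).mul_mem h ((HH z).inv_mem hgx)

theorem conj_ins (hE : SettingAt z E) (hzg : ins z g z) {a f : G} (ha : a ∈ E) (hf : f ∈ E) :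
    ins z g (f⁻¹ * a * f) ↔ ins z g a := by
  rcases conj_mem hE ha hf with h | h
  · rw [h]
  · rw [h]
    exact ins_mul_right hzg

theorem conj_pv (hE : SettingAt z E) (hzg : ins z g z) (hz1 : pv κ g z = 1) {a f : G} (ha : a ∈ E) (hf : f ∈ E)
    (hia : ins z g a) : pv κ g (f⁻¹ * a * f) = pv κ g a := by
  rcases conj_mem hE ha hf with h | h
  · rw [h]
  · rw [h, pv_mul hia hzg, hz1, mul_one]

theorem central_ins (hE : SettingAt z E) (hzg : ins z g z) {a : G} (ha : a = 1 ∨ a = z) : ins z g a := by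
  rcases ha with h | h
  · rw [h]; exact ins_one
  · rw [h]; exact hzg

theorem central_pv (hz1 : pv κ g z = 1) {a : G} (ha : a = 1 ∨ a = z) : pv κ g a = 1 := by
  rcases ha with h | h
  · rw [h]; exact pv_one
  · rw [h]; exact hz1

theorem inv_sq_or (hE : SettingAt z E) {a : G} (ha : a ∈ E) : a⁻¹ * a⁻¹ = 1 ∨ a⁻¹ * a⁻¹ = z :=
  sq_mem hE (E.inv_mem ha)

/-- The uniform pairing from a suitable element `e`. -/
theorem pair_of_e (ctx : Ctx z E) (hxH : x ∈ HH z) (hgx : ins z g x)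
    (hzg : ins z g z) (hz1 : pv κ g z = 1) {e f : G} (he : e ∈ E) (hf : f ∈ E)
    (hre : ins z g (rr x e)) (hrv : pv κ g (rr x e) = 1) :
    KK (HH z) κ ((e * (f * g))⁻¹ * x * (e * (f * g))) = KK (HH z) κ ((f * g)⁻¹ * x * (f * g)) := by
  have hE := ctx.hE
  have hmemr : rr x e ∈ E := rr_mem ctx.hnorm hxH he
  have h1 : (e * (f * g)) = (e * f) * g := by group
  rw [h1]
  have h2 : ins z g (f⁻¹ * rr x e * f) := (conj_ins hE hzg hmemr hf).2 hre
  have h3 : pv κ g (f⁻¹ * rr x e * f) = 1 := by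
    rw [conj_pv hE hzg hz1 hmemr hf hre, hrv]
  by_cases hrf : ins z g (rr x f)
  · rw [val_ins hgx hrf, val_ins hgx (w := e * f) (by rw [rr_mul]; exact ins_mul h2 hrf), rr_mul,
      pv_mul h2 hrf, h3, one_mul]
  · rw [val_not hgx hrf, val_not hgx (w := e * f) (by
      rw [rr_mul, ins_mul_left h2]; exact hrf)]

/-- The product over a block. -/
theorem block_val (ctx : Ctx z E) (hxH : x ∈ HH z) (hgx : ins z g x)
    (hzg : ins z g z) {u c f : G} (hu : u ∈ E) (hc : c ∈ E) (hf : f ∈ E)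
    (hru : ins z g (rr x u)) (hrc : ins z g (rr x c)) (hcomm : c * rr x u = rr x u * c) :
    KK (HH z) κ ((f * g)⁻¹ * x * (f * g)) * KK (HH z) κ ((u * (f * g))⁻¹ * x * (u * (f * g))) *
      KK (HH z) κ ((c * (f * g))⁻¹ * x * (c * (f * g))) *
      KK (HH z) κ ((u * (c * (f * g)))⁻¹ * x * (u * (c * (f * g)))) = 1 := by
  have hE := ctx.hE
  have hmu : rr x u ∈ E := rr_mem ctx.hnorm hxH hu
  have hmc : rr x c ∈ E := rr_mem ctx.hnorm hxH hc
  have h1 : (u * (f * g)) = (u * f) * g := by group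
  have h2 : (c * (f * g)) = (c * f) * g := by group
  have h3 : (u * (c * (f * g))) = (u * c * f) * g := by group
  rw [h3, h1, h2]
  have hau : ins z g (f⁻¹ * rr x u * f) := (conj_ins hE hzg hmu hf).2 hru
  have hac : ins z g (f⁻¹ * rr x c * f) := (conj_ins hE hzg hmc hf).2 hrc
  have hruc : rr x (u * c) = rr x u * rr x c := by
    rw [rr_mul]
    congr 1
    rw [mul_assoc, ← hcomm]
    group
  have hE1 : rr x (u * f) = (f⁻¹ * rr x u * f) * rr x f := rr_mul _ _ _
  have hE2 : rr x (c * f) = (f⁻¹ * rr x c * f) * rr x f := rr_mul _ _ _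
  have hE3 : rr x (u * c * f) = (f⁻¹ * rr x u * f) * (f⁻¹ * rr x c * f) * rr x f := by
    rw [rr_mul, hruc]; group
  by_cases hrf : ins z g (rr x f)
  · rw [val_ins hgx hrf, val_ins hgx (w := u * f) (by rw [hE1]; exact ins_mul hau hrf),
      val_ins hgx (w := c * f) (by rw [hE2]; exact ins_mul hac hrf),
      val_ins hgx (w := u * c * f) (by rw [hE3]; exact ins_mul (ins_mul hau hac) hrf),
      hE1, hE2, hE3, pv_mul hau hrf, pv_mul hac hrf, pv_mul (ins_mul hau hac) hrf, pv_mul hau hac]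
    generalize pv κ g (f⁻¹ * rr x u * f) = p₁
    generalize pv κ g (f⁻¹ * rr x c * f) = p₂
    generalize pv κ g (rr x f) = r
    generalize pv κ g x = ε
    rcases units_cases p₁ with rfl | rfl <;> rcases units_cases p₂ with rfl | rfl <;>
      rcases units_cases r with rfl | rfl <;> rcases units_cases ε with rfl | rfl <;> decide
  · have k1 : ¬ ins z g (rr x (u * f)) := by rw [hE1, ins_mul_left hau]; exact hrf
    have k2 : ¬ ins z g (rr x (c * f)) := by rw [hE2, ins_mul_left hac]; exact hrf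
    have k3 : ¬ ins z g (rr x (u * c * f)) := by
      rw [hE3, ins_mul_left (ins_mul hau hac)]; exact hrf
    rw [val_not hgx hrf, val_not hgx k1, val_not hgx k2, val_not hgx k3]
    decide

/-- The stabiliser as a subgroup. -/
def Pg (z : G) (E : Subgroup G) (g : G) : Subgroup G where
  carrier := {p | p ∈ E ∧ ins z g p}
  one_mem' := ⟨E.one_mem, ins_one⟩
  mul_mem' := fun ha hb => ⟨E.mul_mem ha.1 hb.1, ins_mul ha.2 hb.2⟩
  inv_mem' := fun ha => ⟨E.inv_mem ha.1, ins_inv ha.2⟩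

theorem mem_Pg {p : G} : p ∈ Pg z E g ↔ p ∈ E ∧ ins z g p := Iff.rfl

/-- In a non-split orbit with `pv z = 1`: a uniform pairing element. -/
theorem exists_pair_e [Finite G] (ctx : Ctx z E) (hxH : x ∈ HH z) (hxx : x * x = 1) (hg : g ∉ HH z)
    (hgx : ins z g x) (hzg : ins z g z) (hz1 : pv κ g z = 1) :
    ∃ e ∈ E, ¬ ins z g e ∧ ins z g (rr x e) ∧ pv κ g (rr x e) = 1 := by
  have hE := ctx.hE
  by_cases hall : ∀ v ∈ E, ins z g (rr x v)
  · let Θ : E → ℤˣ := fun v => pv κ g (rr x v)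
    have hmul : ∀ a b : E, Θ (a * b) = Θ a * Θ b := by
      intro a b
      simp only [Θ]
      have hra := hall a a.2
      have hrb := hall b b.2
      have hma : rr x a ∈ E := rr_mem ctx.hnorm hxH a.2
      have h2 : ins z g ((b : G)⁻¹ * rr x a * b) := (conj_ins hE hzg hma b.2).2 hra
      change pv κ g (rr x ((a : G) * b)) = _
      rw [rr_mul, pv_mul h2 hrb, conj_pv hE hzg hz1 hma b.2 hra]
    have htriv : ∀ p : E, ins z g p → Θ p = 1 := by
      intro p hp
      simp only [Θ]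
      have h1 := val_ins (κ := κ) hgx (hall p p.2)
      have h2 : ((p : G) * g)⁻¹ * x * ((p : G) * g) = (g⁻¹ * p * g)⁻¹ * (g⁻¹ * x * g) * (g⁻¹ * p * g) := by
        group
      have h3 : KK (HH z) κ (((p : G) * g)⁻¹ * x * ((p : G) * g)) = pv κ g x := by
        rw [h2, KK_conj (HH z) κ hp]
        rfl
      rw [h3] at h1
      have h4 : 1 * pv κ g x = pv κ g (rr x p) * pv κ g x := by rw [one_mul]; exact h1
      exact (mul_right_cancel h4).symm
    obtain ⟨e, he1, he2⟩ := exists_ker_not_stab ctx hg hzg Θ hmul htriv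
    exact ⟨e, e.2, he2, hall e e.2, he1⟩
  · push Not at hall
    obtain ⟨v, hv, hrv⟩ := hall
    have hme : rr x v ∈ E := rr_mem ctx.hnorm hxH hv
    refine ⟨rr x v, hme, hrv, ?_, ?_⟩
    · rw [rr_rr hxx]
      exact central_ins hE hzg (inv_sq_or hE hme)
    · rw [rr_rr hxx]
      exact central_pv hz1 (inv_sq_or hE hme)

/-- In an orbit with `pv z ≠ 1`: a block. -/
theorem exists_block [Finite G] (ctx : Ctx z E) (h128 : 128 ≤ Nat.card E) (hxH : x ∈ HH z) (hxx : x * x = 1)
    (hzg : ins z g z) (hz1 : pv κ g z ≠ 1) :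
    ∃ u ∈ E, ∃ c ∈ E, ¬ ins z g u ∧ ¬ ins z g c ∧ ¬ ins z g (c⁻¹ * u) ∧
      ins z g (rr x u) ∧ ins z g (rr x c) ∧ c * rr x u = rr x u * c := by
  classical
  have hE := ctx.hE
  have hzm : pv κ g z = -1 := (units_cases _).resolve_left hz1
  -- `P` is abelian
  have hab : ∀ a ∈ Pg z E g, ∀ b ∈ Pg z E g, a * b = b * a := by
    intro a ha b hb
    rcases comm_mem hE ha.1 hb.1 with h | h
    · exact h
    · exfalso
      have h1 := congrArg (pv κ g) h
      rw [pv_mul ha.2 hb.2, pv_mul hzg (ins_mul hb.2 ha.2), pv_mul hb.2 ha.2, hzm] at h1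
      generalize pv κ g a = p at h1
      generalize pv κ g b = q at h1
      revert h1
      rcases units_cases p with rfl | rfl <;> rcases units_cases q with rfl | rfl <;> decide
  have hcard := card_bound hE (Pg z E g) (fun p hp => hp.1) ⟨hE.mem, hzg⟩ hab h128
  have hpos : 0 < Nat.card (Pg z E g) := Nat.card_pos
  have hnocover : ∀ u v : G, ¬ (∀ w ∈ E, w ∈ Pg z E g ∨ u⁻¹ * w ∈ Pg z E g ∨ w * v⁻¹ ∈ Pg z E g ∨ u⁻¹ * (w * v⁻¹) ∈ Pg z E g) := by
    intro u v hcov
    have := card_le_four_of_cover E (Pg z E g) u v hcov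
    omega
  have hinsinv : ∀ {a b : G}, ins z g (a⁻¹ * b) ↔ ins z g (b⁻¹ * a) := by
    intro a b
    have : (b⁻¹ * a) = (a⁻¹ * b)⁻¹ := by group
    rw [this, ins_inv_iff]
  by_cases hall : ∀ v ∈ E, ins z g (rr x v)
  · -- all `ρ` in the stabiliser
    have hu : ∃ u ∈ E, ¬ ins z g u := by
      by_contra hcon
      push Not at hcon
      apply hnocover 1 1
      intro w hw
      exact Or.inl ⟨hw, hcon w hw⟩
    obtain ⟨u, huE, hu⟩ := hu
    have hmr : rr x u ∈ E := rr_mem ctx.hnorm hxH huE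
    by_contra hcon
    push Not at hcon
    have hkey : ∀ c ∈ E, c * rr x u = rr x u * c → ins z g c ∨ ins z g (u⁻¹ * c) := by
      intro c hc hcu
      by_contra hno
      push Not at hno
      exact hno.2 (hinsinv.1 (by
        by_contra hcu2
        exact (hcon u huE c hc hu hno.1 hcu2 (hall u huE) (hall c hc)) hcu))
    -- covering
    by_cases hallc : ∀ c ∈ E, c * rr x u = rr x u * c
    · apply hnocover u 1
      intro w hw
      rcases hkey w hw (hallc w hw) with h | h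
      · exact Or.inl ⟨hw, h⟩
      · exact Or.inr (Or.inl ⟨E.mul_mem (E.inv_mem huE) hw, h⟩)
    · push Not at hallc
      obtain ⟨v, hvE, hv⟩ := hallc
      apply hnocover u v
      intro w hw
      by_cases hwc : w * rr x u = rr x u * w
      · rcases hkey w hw hwc with h | h
        · exact Or.inl ⟨hw, h⟩
        · exact Or.inr (Or.inl ⟨E.mul_mem (E.inv_mem huE) hw, h⟩)
      · have hwv : w * v⁻¹ ∈ E := E.mul_mem hw (E.inv_mem hvE)
        have hcv : (w * v⁻¹) * rr x u = rr x u * (w * v⁻¹) := by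
          -- both move `ρ` by `z`
          have h1 : rr x u * w = z * (w * rr x u) := by
            rcases comm_mem hE hmr hw with h | h
            · exact absurd h.symm hwc
            · exact h
          have h2 : rr x u * v = z * (v * rr x u) := by
            rcases comm_mem hE hmr hvE with h | h
            · exact absurd h.symm hv
            · exact h
          have hzi := z_inv hE
          have hzc : ∀ a ∈ E, a * z = z * a := hE.central
          have h3 : rr x u * v⁻¹ = z * (v⁻¹ * rr x u) := by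
            have h4 : v⁻¹ * (rr x u * v) * v⁻¹ = v⁻¹ * (z * (v * rr x u)) * v⁻¹ := by rw [h2]
            have h5 : v⁻¹ * (rr x u * v) * v⁻¹ = v⁻¹ * rr x u := by group
            have h6 : v⁻¹ * (z * (v * rr x u)) * v⁻¹ = (v⁻¹ * z * v) * rr x u * v⁻¹ := by group
            have h7 : v⁻¹ * z * v = z := by
              have := hzc v hvE
              calc v⁻¹ * z * v = v⁻¹ * (z * v) := by group
                _ = v⁻¹ * (v * z) := by rw [this]
                _ = z := by group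
            rw [h5, h6, h7] at h4
            have h8 : z * (v⁻¹ * rr x u) = z * (z * rr x u * v⁻¹) := by rw [h4]
            rw [h8, ← mul_assoc, ← mul_assoc, hE.sq, one_mul]
          calc (w * v⁻¹) * rr x u = w * (v⁻¹ * rr x u) := by group
            _ = w * (z⁻¹ * (rr x u * v⁻¹)) := by rw [h3]; group
            _ = (w * z⁻¹) * (rr x u * v⁻¹) := by group
            _ = (z⁻¹ * w) * (rr x u * v⁻¹) := by
              rw [hzi, hzc w hw]
            _ = z⁻¹ * (w * rr x u) * v⁻¹ := by group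
            _ = z⁻¹ * (z⁻¹ * (rr x u * w)) * v⁻¹ := by rw [h1]; group
            _ = (z⁻¹ * z⁻¹) * (rr x u * w) * v⁻¹ := by group
            _ = rr x u * (w * v⁻¹) := by
              rw [hzi, hE.sq]; group
        rcases hkey _ hwv hcv with h | h
        · exact Or.inr (Or.inr (Or.inl ⟨hwv, h⟩))
        · exact Or.inr (Or.inr (Or.inr ⟨E.mul_mem (E.inv_mem huE) hwv, h⟩))
  · -- some `ρ` outside
    push Not at hall
    obtain ⟨v, hvE, hrv⟩ := hall
    have huE : rr x v ∈ E := rr_mem ctx.hnorm hxH hvE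
    have hrz : ins z g (rr x (rr x v)) := by
      rw [rr_rr hxx]
      exact central_ins hE hzg (inv_sq_or hE huE)
    by_contra hcon
    push Not at hcon
    have hkey : ∀ c ∈ E, ins z g (rr x c) → ins z g c ∨ ins z g ((rr x v)⁻¹ * c) := by
      intro c hc hrc
      by_contra hno
      push Not at hno
      refine (hcon _ huE c hc hrv hno.1 (fun h => hno.2 (hinsinv.1 h)) hrz hrc) ?_
      -- `ρ ρ` is central
      rw [rr_rr hxx]
      rcases inv_sq_or hE huE with h | h
      · rw [h]; simp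
      · rw [h]; exact hE.central c hc
    apply hnocover (rr x v) v
    intro w hw
    by_cases hrw : ins z g (rr x w)
    · rcases hkey w hw hrw with h | h
      · exact Or.inl ⟨hw, h⟩
      · exact Or.inr (Or.inl ⟨E.mul_mem (E.inv_mem huE) hw, h⟩)
    · have hmw : rr x w ∈ E := rr_mem ctx.hnorm hxH hw
      have hrrw : ins z g (rr x (rr x w)) := by
        rw [rr_rr hxx]
        exact central_ins hE hzg (inv_sq_or hE hmw)
      have h1 : ins z g ((rr x v)⁻¹ * rr x w) := (hkey _ hmw hrrw).resolve_left hrw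
      have hwv : w * v⁻¹ ∈ E := E.mul_mem hw (E.inv_mem hvE)
      have hrwv : ins z g (rr x (w * v⁻¹)) := by
        rw [rr_inv_formula]
        -- conjugation by elements of `E`
        have h2 : ins z g (rr x w * (rr x v)⁻¹) := by
          have h3 : rr x w * (rr x v)⁻¹ = (rr x v)⁻¹⁻¹ * ((rr x v)⁻¹ * rr x w) * (rr x v)⁻¹ := by group
          rw [h3]
          apply (conj_ins hE hzg (E.mul_mem (E.inv_mem huE) hmw) (E.inv_mem huE)).2
          exact h1
        have h4 : v * (rr x w * (rr x v)⁻¹) * v⁻¹ = v⁻¹⁻¹ * (rr x w * (rr x v)⁻¹) * v⁻¹ := by group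
        rw [h4]
        exact (conj_ins hE hzg (E.mul_mem hmw (E.inv_mem huE)) (E.inv_mem hvE)).2 h2
      rcases hkey _ hwv hrwv with h | h
      · exact Or.inr (Or.inr (Or.inl ⟨hwv, h⟩))
      · exact Or.inr (Or.inr (Or.inr ⟨E.mul_mem (E.inv_mem huE) hwv, h⟩))

/-- The pairing or block on the orbit of a coset `gH`, `g ∉ H`, with `g⁻¹ x g ∈ H`. -/
theorem orbit_alt [Finite G] (ctx : Ctx z E) (h128 : 128 ≤ Nat.card E) (hxH : x ∈ HH z) (hxx : x * x = 1)
    (hg : g ∉ HH z) (hgx : ins z g x) :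
    (∃ e : E, ∀ f : E,
      KK (HH z) κ (((e : G) * ((f : G) * g))⁻¹ * x * ((e : G) * ((f : G) * g))) = KK (HH z) κ (((f : G) * g)⁻¹ * x * ((f : G) * g)) ∧
      (((e : G) * ((e : G) * ((f : G) * g)) : G) : G ⧸ HH z) = (((f : G) * g : G) : G ⧸ HH z) ∧
      (((e : G) * ((f : G) * g) : G) : G ⧸ HH z) ≠ (((f : G) * g : G) : G ⧸ HH z)) ∨
    (∃ u c : E, ∀ f : E,
      (((u : G) * ((u : G) * ((f : G) * g)) : G) : G ⧸ HH z) = (((f : G) * g : G) : G ⧸ HH z) ∧
      (((c : G) * ((c : G) * ((f : G) * g)) : G) : G ⧸ HH z) = (((f : G) * g : G) : G ⧸ HH z) ∧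
      (((u : G) * ((c : G) * ((f : G) * g)) : G) : G ⧸ HH z) = (((c : G) * ((u : G) * ((f : G) * g)) : G) : G ⧸ HH z) ∧
      (((u : G) * ((f : G) * g) : G) : G ⧸ HH z) ≠ (((f : G) * g : G) : G ⧸ HH z) ∧
      (((c : G) * ((f : G) * g) : G) : G ⧸ HH z) ≠ (((f : G) * g : G) : G ⧸ HH z) ∧
      (((u : G) * ((f : G) * g) : G) : G ⧸ HH z) ≠ (((c : G) * ((f : G) * g) : G) : G ⧸ HH z) ∧
      KK (HH z) κ (((f : G) * g)⁻¹ * x * ((f : G) * g)) * KK (HH z) κ (((u : G) * ((f : G) * g))⁻¹ * x * ((u : G) * ((f : G) * g))) *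
        KK (HH z) κ (((c : G) * ((f : G) * g))⁻¹ * x * ((c : G) * ((f : G) * g))) *
        KK (HH z) κ (((u : G) * ((c : G) * ((f : G) * g)))⁻¹ * x * ((u : G) * ((c : G) * ((f : G) * g)))) = 1) := by
  have hE := ctx.hE
  have hxz : z * x = x * z := mem_HH.1 hxH
  by_cases hzg : ins z g z
  swap
  · -- `z` moves all cosets in the orbit
    left
    refine ⟨⟨z, hE.mem⟩, fun f => ?_⟩
    have hzc : (f : G) * z = z * f := hE.central f f.2
    have hzi := z_inv hE
    refine ⟨?_, ?_, ?_⟩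
    · congr 1
      change (z * ((f : G) * g))⁻¹ * x * (z * ((f : G) * g)) = _
      calc (z * ((f : G) * g))⁻¹ * x * (z * ((f : G) * g)) = ((f : G) * g)⁻¹ * (z⁻¹ * (x * z)) * ((f : G) * g) := by group
        _ = ((f : G) * g)⁻¹ * (z⁻¹ * (z * x)) * ((f : G) * g) := by rw [hxz]
        _ = ((f : G) * g)⁻¹ * x * ((f : G) * g) := by group
    · change ((z * (z * ((f : G) * g)) : G) : G ⧸ HH z) = _
      rw [← mul_assoc, hE.sq, one_mul]
    · change ((z * ((f : G) * g) : G) : G ⧸ HH z) ≠ _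
      intro h
      rw [QuotientGroup.eq] at h
      apply hzg
      have h1 : (z * ((f : G) * g))⁻¹ * ((f : G) * g) = g⁻¹ * z * g := by
        calc (z * ((f : G) * g))⁻¹ * ((f : G) * g) = g⁻¹ * ((f : G)⁻¹ * (z⁻¹ * f)) * g := by group
          _ = g⁻¹ * ((f : G)⁻¹ * (z * f)) * g := by rw [hzi]
          _ = g⁻¹ * ((f : G)⁻¹ * (f * z)) * g := by rw [hzc]
          _ = g⁻¹ * z * g := by group
      rw [h1] at h
      exact h
  have hsqins : ∀ a ∈ E, ins z g (a * a) := fun a ha => central_ins hE hzg (sq_mem hE ha)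
  by_cases hz1 : pv κ g z = 1
  · left
    obtain ⟨e, he, he1, he2, he3⟩ := exists_pair_e (κ := κ) ctx hxH hxx hg hgx hzg hz1
    refine ⟨⟨e, he⟩, fun f => ⟨?_, ?_, ?_⟩⟩
    · exact pair_of_e ctx hxH hgx hzg hz1 he f.2 he2 he3
    · have h1 : (e * (e * ((f : G) * g))) = (e * e) * ((f : G) * g) := by group
      change ((e * (e * ((f : G) * g)) : G) : G ⧸ HH z) = _
      rw [h1]
      exact (stab_iff hE hzg (E.mul_mem he he) f.2).2 (hsqins e he)
    · intro h
      exact he1 ((stab_iff hE hzg he f.2).1 h)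
  · right
    obtain ⟨u, hu, c, hc, h1, h2, h3, h4, h5, h6⟩ := exists_block (κ := κ) ctx h128 hxH hxx hzg hz1
    refine ⟨⟨u, hu⟩, ⟨c, hc⟩, fun f => ⟨?_, ?_, ?_, ?_, ?_, ?_, ?_⟩⟩
    · have h0 : (u * (u * ((f : G) * g))) = (u * u) * ((f : G) * g) := by group
      change ((u * (u * ((f : G) * g)) : G) : G ⧸ HH z) = _
      rw [h0]
      exact (stab_iff hE hzg (E.mul_mem hu hu) f.2).2 (hsqins u hu)
    · have h0 : (c * (c * ((f : G) * g))) = (c * c) * ((f : G) * g) := by group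
      change ((c * (c * ((f : G) * g)) : G) : G ⧸ HH z) = _
      rw [h0]
      exact (stab_iff hE hzg (E.mul_mem hc hc) f.2).2 (hsqins c hc)
    · have h0 : (u * (c * ((f : G) * g))) = (u * c) * ((f : G) * g) := by group
      have h0' : (c * (u * ((f : G) * g))) = (c * u) * ((f : G) * g) := by group
      change ((u * (c * ((f : G) * g)) : G) : G ⧸ HH z) = ((c * (u * ((f : G) * g)) : G) : G ⧸ HH z)
      rw [h0, h0']
      apply (stab_iff₂ hE hzg (E.mul_mem hu hc) (E.mul_mem hc hu) f.2).2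
      rcases comm_mem hE hu hc with h | h
      · rw [h, inv_mul_cancel]
        exact ins_one
      · rw [h]
        have h7 : (c * u)⁻¹ * (z * (c * u)) = (c * u)⁻¹ * ((c * u) * z) := by
          rw [hE.central _ (E.mul_mem hc hu)]
        rw [h7, inv_mul_cancel_left]
        exact hzg
    · intro h
      exact h1 ((stab_iff hE hzg hu f.2).1 h)
    · intro h
      exact h2 ((stab_iff hE hzg hc f.2).1 h)
    · intro h
      exact h3 ((stab_iff₂ hE hzg hu hc f.2).1 h)
    · exact block_val ctx hxH hgx hzg hu hc f.2 h4 h5 h6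

end Orbit

/-- The transfer at an involution of `H` on which `κ` is nontrivial is nontrivial. -/
theorem lemmaB [Finite G] (ctx : Ctx z E) (h128 : 128 ≤ Nat.card E) (κ : HH z →* ℤˣ) {x : G} (hxH : x ∈ HH z)
    (hxx : x * x = 1) (hκx : κ ⟨x, hxH⟩ = -1) : MonoidHom.transfer κ x ≠ 1 := by
  classical
  have hE := ctx.hE
  intro hV1
  letI : Fintype (G ⧸ HH z) := Fintype.ofFinite _
  have hmin2 : ∀ (g : G) (n : ℕ), n ≠ 1 → n ∣ 2 ^ 1 → ∀ hu : g⁻¹ * x ^ n * g ∈ HH z, κ ⟨_, hu⟩ = 1 := by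
    intro g n hn1 hn2 hu
    have hn : n = 2 := by
      obtain ⟨b, hb, rfl⟩ := (Nat.dvd_prime_pow Nat.prime_two).1 hn2
      interval_cases b
      · exact absurd (by simp) hn1
      · simp
    subst hn
    have : (⟨g⁻¹ * x ^ 2 * g, hu⟩ : HH z) = 1 := by
      apply Subtype.ext
      change g⁻¹ * x ^ 2 * g = 1
      rw [pow_two, hxx]; group
    rw [this, map_one]
  have hV : MonoidHom.transfer κ x = ∏ y : G ⧸ HH z, nu (HH z) κ x y :=
    transfer_eq_prod (HH z) κ x 1 (by rw [pow_one, pow_two, hxx]) hmin2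
  let H₀ : G ⧸ HH z := ((1 : G) : G ⧸ HH z)
  have hνH₀ : nu (HH z) κ x H₀ = -1 := by
    rw [nu_mk]
    have : (1 : G)⁻¹ * x * 1 = x := by group
    rw [this, KK_of_mem _ _ hxH, hκx]
  let ν' : G ⧸ HH z → ℤˣ := fun y => if y = H₀ then 1 else nu (HH z) κ x y
  have hν'1 : ∏ y, ν' y = 1 := by
    apply prod_eq_one_of_pairing_or_blocks (E := E)
    intro y₀ hy₀
    have hy₀ne : y₀ ≠ H₀ := by
      intro h
      apply hy₀
      simp [ν', h]
    have hνy₀ : nu (HH z) κ x y₀ ≠ 1 := by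
      intro h
      apply hy₀
      simp [ν', h]
    induction y₀ using QuotientGroup.induction_on with
    | H g =>
    have hg : g ∉ HH z := by
      intro hmem
      apply hy₀ne
      change (g : G ⧸ HH z) = ((1 : G) : G ⧸ HH z)
      rw [QuotientGroup.eq]
      simpa using hmem
    rw [nu_mk] at hνy₀
    have hgx : ins z g x := by
      by_contra hcon
      exact hνy₀ (KK_of_not_mem _ _ hcon)
    have hne : ∀ a : G, a ∈ E → ((a * g : G) : G ⧸ HH z) ≠ H₀ := by
      intro a ha hh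
      apply hg
      change ((a * g : G) : G ⧸ HH z) = ((1 : G) : G ⧸ HH z) at hh
      rw [QuotientGroup.eq] at hh
      have h4 : (a * g)⁻¹ * 1 = g⁻¹ * a⁻¹ := by group
      rw [h4] at hh
      have h5 : g = a⁻¹ * (g⁻¹ * a⁻¹)⁻¹ := by group
      rw [h5]
      exact (HH z).mul_mem ((HH z).inv_mem (E_le_HH hE ha)) ((HH z).inv_mem hh)
    have hν'val : ∀ a : G, a ∈ E → ν' ((a * g : G) : G ⧸ HH z) = KK (HH z) κ ((a * g)⁻¹ * x * (a * g)) := by
      intro a ha
      simp only [ν']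
      rw [if_neg (hne a ha), nu_mk]
    have hval1 : ∀ (e f : E), ν' (e • f • ((g : G) : G ⧸ HH z)) =
        KK (HH z) κ (((e : G) * ((f : G) * g))⁻¹ * x * ((e : G) * ((f : G) * g))) := by
      intro e f
      have h1 : e • f • ((g : G) : G ⧸ HH z) = (((e : G) * ((f : G) * g) : G) : G ⧸ HH z) := rfl
      have h2 : ((e : G) * ((f : G) * g)) = ((e : G) * f) * g := by group
      rw [h1, h2]
      exact hν'val _ (E.mul_mem e.2 f.2)
    have hval2 : ∀ (f : E), ν' (f • ((g : G) : G ⧸ HH z)) =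
        KK (HH z) κ (((f : G) * g)⁻¹ * x * ((f : G) * g)) := by
      intro f
      exact hν'val _ f.2
    have hval3 : ∀ (e c f : E), ν' (e • c • f • ((g : G) : G ⧸ HH z)) =
        KK (HH z) κ (((e : G) * ((c : G) * ((f : G) * g)))⁻¹ * x * ((e : G) * ((c : G) * ((f : G) * g)))) := by
      intro e c f
      have h1 : e • c • f • ((g : G) : G ⧸ HH z) = (((e : G) * ((c : G) * ((f : G) * g)) : G) : G ⧸ HH z) := rfl
      have h2 : ((e : G) * ((c : G) * ((f : G) * g))) = ((e : G) * (c * f)) * g := by group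
      rw [h1, h2]
      exact hν'val _ (E.mul_mem e.2 (E.mul_mem c.2 f.2))
    rcases orbit_alt (κ := κ) ctx h128 hxH hxx hg hgx with ⟨e, he⟩ | ⟨u, c, huc⟩
    · left
      refine ⟨e, fun f => ?_⟩
      obtain ⟨h1, h2, h3⟩ := he f
      exact ⟨by rw [hval1, hval2]; exact h1, h2, h3⟩
    · right
      refine ⟨u, c, fun f => ?_⟩
      obtain ⟨h1, h2, h3, h4, h5, h6, h7⟩ := huc f
      refine ⟨h1, h2, h3, h4, h5, h6, ?_⟩
      rw [hval1, hval1, hval2, hval3]
      exact h7
  have h1 : ∏ y, nu (HH z) κ x y = nu (HH z) κ x H₀ * ∏ y ∈ Finset.univ.erase H₀, nu (HH z) κ x y :=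
    (Finset.mul_prod_erase _ _ (Finset.mem_univ H₀)).symm
  have h2 : ∏ y, ν' y = ν' H₀ * ∏ y ∈ Finset.univ.erase H₀, ν' y :=
    (Finset.mul_prod_erase _ _ (Finset.mem_univ H₀)).symm
  have h3 : ∏ y ∈ Finset.univ.erase H₀, ν' y = ∏ y ∈ Finset.univ.erase H₀, nu (HH z) κ x y := by
    apply Finset.prod_congr rfl
    intro y hy
    simp only [ν']
    rw [if_neg (Finset.ne_of_mem_erase hy)]
  have h4 : ν' H₀ = 1 := by simp [ν']
  rw [hν'1, h4, one_mul, h3] at h2
  rw [← hV, hV1, hνH₀, ← h2, mul_one] at h1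
  exact absurd h1 (by decide)

end Cfsg.Agent.Lib.ExtraFusion.LemmaB
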