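import Mathlib
import Cfsg.Agent.Lib.ExtraFusion.LemmaA
import Cfsg.Agent.Lib.ExtraFusion.LemmaB

/-!
If `O^2(G) = G` and `E = O₂(C_G(z))` is extraspecial of order at least `128` with `C_G(E) ≤ E`, and
`z` is conjugate to no other element of `E`, then `C_G(z)` has no homomorphism onto `{±1}`.
-/

set_option autoImplicit false
set_option linter.unusedSectionVars false
set_option linter.unusedVariables false
set_option linter.style.longLine false

namespace Cfsg.Agent.Lib.ExtraFusion.Main

open Cfsg.Agent.Lib.LargeExtra.Basic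
open Cfsg.Agent.Lib.ExtraTransfer.Main
open Cfsg.Agent.Lib.ExtraFusion.Setup

variable {G : Type*} [Group G] {z : G} {E : Subgroup G}

theorem transfer_trivial [Finite G] (hres : Cfsg.pResidual 2 G = ⊤) (κ : HH z →* ℤˣ) (x : G) :
    MonoidHom.transfer κ x = 1 := by
  have hle : Cfsg.pResidual 2 G ≤ (MonoidHom.transfer κ).ker := by
    unfold Cfsg.pResidual
    rw [Subgroup.closure_le]
    intro g hg
    have hg' : Nat.Coprime (orderOf g) 2 := hg
    rw [SetLike.mem_coe, MonoidHom.mem_ker]
    rcases Int.units_eq_one_or (MonoidHom.transfer κ g) with h1 | h1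
    · exact h1
    · exfalso
      have h2 := congrArg (MonoidHom.transfer κ) (pow_orderOf_eq_one g)
      rw [map_pow, map_one, h1] at h2
      have hodd : Odd (orderOf g) := Nat.Coprime.odd_of_right hg'
      rw [hodd.neg_one_pow] at h2
      exact absurd h2 (by decide)
  exact hle (by rw [hres]; trivial)

theorem main [Finite G] (hres : Cfsg.pResidual 2 G = ⊤) (ctx : Ctx z E) (h128 : 128 ≤ Nat.card E)
    (κ : HH z →* ℤˣ) : ∀ u, κ u = 1 := by
  have hV := transfer_trivial (z := z) hres κ
  apply LemmaA.lemmaA ctx κ ?_ hV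
  intro g hg
  by_contra hne
  have hm : κ ⟨_, hg⟩ = -1 := (Int.units_eq_one_or _).resolve_left hne
  have hxx : (g⁻¹ * z * g) * (g⁻¹ * z * g) = 1 := by
    calc (g⁻¹ * z * g) * (g⁻¹ * z * g) = g⁻¹ * (z * z) * g := by group
      _ = 1 := by rw [ctx.hE.sq]; group
  exact LemmaB.lemmaB ctx h128 κ hg hxx hm (hV _)

end Cfsg.Agent.Lib.ExtraFusion.Main
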